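import Cfsg.Agent.H53.SimXASpec

/-! Tower SIM, chapter XA, job MK2. -/

set_option autoImplicit false

namespace H79.SimMK2

open Subgroup Cfsg H98 Matrix H0.Sim H53.XA

theorem jobMK2 : JMK2 := by
  intro rp red bk ns bi n F _ _ u q p Θ H Q E g x n1 f hf s hs
  have fq : Fq F u q := x.par.card
  obtain ⟨hE, -, -, ⟨y, hy, ny⟩, -, -⟩ := rp n F u q p Θ H Q E g x
  obtain ⟨cm, -⟩ := red n F u q E fq hE
  obtain ⟨orth, -⟩ := bk n F u q E fq hE
  obtain ⟨-, iv, -⟩ := bi n F u q p Θ H Q E g x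
  have nf : ¬ Sc f := by
    rintro ⟨c, rfl⟩
    have h1 := hf.2.1.sq
    rw [← map_mul] at h1
    have : Nonempty (Fin n) := ⟨⟨0, by have := x.par.two; omega⟩⟩
    have h2 : c * c = c := Matrix.scalar_inj.1 h1
    by_cases h0 : c = 0
    · exact hf.2.2.1 (by rw [h0, map_zero])
    · have h3 : c = 1 := mul_left_cancel₀ h0 (h2.trans (mul_one c).symm)
      rw [h3, map_one] at hf
      exact n1 hf
  have mv := ns n F u q (Bl u q E) x.par
    ⟨y, hE.le hy, ny, fun m hm => (cm _ (Submodule.subset_span ⟨y, hy, rfl⟩) m hm.1).2⟩ ⟨f, hf, nf⟩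
  refine x.mp _ iv mv s hs.1 fun m hm => ?_
  have l1 : (1 - f) * (s : Mt n F) = 1 - f := hs.2.2.1
  have l2 : (s : Mt n F) * (1 - f) = 1 - f := hs.2.2.2
  have c : (s : Mt n F) * m = m * s := by
    by_cases e : m = f
    · have h1 := l1.trans l2.symm
      rw [sub_mul, mul_sub, one_mul, mul_one, sub_right_inj] at h1
      rw [e, h1]
    · have a1 : (1 - f) * m = m := by
        rw [sub_mul, one_mul, orth f hf m hm (Ne.symm e), sub_zero]
      have a2 : m * (1 - f) = m := by
        rw [mul_sub, mul_one, orth m hm f hf e, sub_zero]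
      calc (s : Mt n F) * m = s * (1 - f) * m := by rw [mul_assoc, a1]
        _ = m * ((1 - f) * s) := by rw [l2, l1, a1, a2]
        _ = m * s := by rw [← mul_assoc, a2]
  rwa [c, mul_assoc, Units.mul_inv, mul_one]

end H79.SimMK2
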