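/- KS-MOM: first and second moments of the intersection numbers. -/
import Cfsg.Agent.H51.KSSpec

set_option autoImplicit false
set_option linter.unusedSectionVars false

namespace H79.KS

open Finset H51.KS H51.KL H54 H26.MS Module Submodule

universe u v

open Classical in
/-- rational indicator -/
noncomputable def ind {V : Type*} (s : Set V) (x : V) : ℚ := if x ∈ s then 1 else 0

theorem ncard_sum {V : Type*} [Fintype V] (s : Set V) : (s.ncard : ℚ) = ∑ x, ind s x := by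
  classical
  simp only [ind]
  rw [sum_boole, Set.ncard_eq_toFinset_card']
  congr 2
  ext
  simp

theorem ind_inter {V : Type*} (s t : Set V) (x : V) : ind (s ∩ t) x = ind s x * ind t x := by
  by_cases h : x ∈ s <;> by_cases h' : x ∈ t <;> simp [ind, h, h']

theorem ind_congr {V W : Type*} {s : Set V} {t : Set W} {x : V} {y : W} (h : x ∈ s ↔ y ∈ t) :
    ind s x = ind t y := by
  classical
  exact if_congr h rfl rfl

theorem ind_pos {V : Type*} (s : Set V) {x : V} (h : x ∈ s) : ind s x = 1 := if_pos h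

theorem ind_neg {V : Type*} (s : Set V) {x : V} (h : x ∉ s) : ind s x = 0 := if_neg h

theorem ind_mul {V : Type*} {s : Set V} {x : V} {a b : ℚ} (h : x ∈ s → a = b) :
    ind s x * a = ind s x * b := by
  by_cases e : x ∈ s
  · rw [h e]
  · simp [ind, e]

variable {F : Type u} [Field F] [Finite F] {V : Type v} [AddCommGroup V] [Module F V]
  [FiniteDimensional F V] {B : LinearMap.BilinForm F V} {O : Set V}

theorem rk_perp (S : Sy B) {x : V} (hx : x ≠ 0) :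
    finrank F (LinearMap.ker (B x)) + 1 = finrank F V :=
  Module.Dual.finrank_ker_add_one_of_ne_zero fun h => hx (S.nd.1 x fun y => by simp [h])

theorem cj_facts {k h₁ h₂ : ℕ} {ε : ℤ} (h0 : 0 ∉ O) (hs : ∀ x ∈ O, ∀ c : F, c ≠ 0 → c • x ∈ O)
    (hN : Nums B O k h₁ h₂ ε) (ω : Cj B O) :
    0 ∉ ω.1 ∧ (∀ x, ∀ c : F, c ≠ 0 → (c • x ∈ ω.1 ↔ x ∈ ω.1)) ∧ ω.1.ncard = O.ncard ∧
      ∀ x, x ≠ 0 → ({y | y ∈ ω.1 ∧ B x y = 0}.ncard : ℚ) = h₂ + (h₁ - h₂) * ind ω.1 x := by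
  obtain ⟨_, g, hg, rfl⟩ := ω
  have h1 : ∀ x ∈ g '' O, ∀ c : F, c ≠ 0 → c • x ∈ g '' O := by
    rintro _ ⟨x, hx, rfl⟩ c hc
    exact ⟨_, hs x hx c hc, map_smul _ _ _⟩
  refine ⟨fun ⟨x, hx, e⟩ => h0 (g.map_eq_zero_iff.1 e ▸ hx), fun x c hc => ⟨fun h => by
    simpa [hc] using h1 _ h c⁻¹ (inv_ne_zero hc), fun h => h1 x h c hc⟩,
    Set.ncard_image_of_injective _ g.injective, fun x hx => ?_⟩
  obtain ⟨x, rfl⟩ := g.surjective x
  have h2 : {y | y ∈ g '' O ∧ B (g x) y = 0} = g '' {y | y ∈ O ∧ B x y = 0} := by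
    ext y
    obtain ⟨y, rfl⟩ := g.surjective y
    simp only [Set.mem_ofPred_eq, g.injective.mem_set_image, hg x y]
  rw [h2, Set.ncard_image_of_injective _ g.injective, ind_congr g.injective.mem_set_image]
  by_cases e : x ∈ O
  · simp [ind, e, hN.one x e]
  · simp [ind, e, hN.two x (fun h => hx (by simp [h])) e]

variable (B O) in
/-- number of conjugates through two vectors -/
noncomputable def mu [Fintype (Cj B O)] (x y : V) : ℚ := ∑ ω : Cj B O, ind ω.1 x * ind ω.1 y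

theorem mu_map [Fintype (Cj B O)] {g : V ≃ₗ[F] V} (hg : g ∈ Isom B) (x y : V) :
    mu B O (g x) (g y) = mu B O x y := by
  let a : Cj B O → Cj B O := fun ω => ⟨g '' ω.1, by
    obtain ⟨_, h, hh, rfl⟩ := ω
    exact ⟨g * h, mul_mem hg hh, Set.image_image _ _ _⟩⟩
  have hb : Function.Bijective a := Finite.injective_iff_bijective.1 fun ω ω' h =>
    Subtype.ext (Set.image_injective.2 g.injective (congrArg Subtype.val h))
  rw [mu, ← hb.sum_comp]
  exact sum_congr rfl fun ω _ => by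
    rw [ind_congr g.injective.mem_set_image, ind_congr g.injective.mem_set_image]

theorem mu_vals [Fintype (Cj B O)] (S : Sy B) (hn : 3 ≤ finrank F V)
    (hs : ∀ (ω : Cj B O) x, ∀ c : F, c ≠ 0 → (c • x ∈ ω.1 ↔ x ∈ ω.1)) :
    ∃ m₀ m₁ m₂ : ℚ, ∀ x y, x ≠ 0 → y ≠ 0 → mu B O x y =
      m₂ + (m₁ - m₂) * ind {y | B x y = 0} y + (m₀ - m₁) * ind (F ∙ x : Submodule F V) y := by
  obtain ⟨z, hz⟩ := exists_ne_zero' (F := F) (V := V) (by omega)
  obtain ⟨y₂, e₂, -⟩ := exists_partner S.alt S.nd (W := ⊥) (x := z) (by simpa using hz)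
  obtain ⟨y₁, e₁, n₁⟩ : ∃ y, B z y = 0 ∧ y ∉ F ∙ z := by
    by_contra! h
    have := finrank_mono (show LinearMap.ker (B z) ≤ F ∙ z from h)
    have := rk_perp S hz
    rw [finrank_span_singleton hz] at *
    omega
  have sc : ∀ x y (c : F), c ≠ 0 → mu B O x (c • y) = mu B O x y := fun x y c hc =>
    sum_congr rfl fun ω _ => by rw [ind_congr (hs ω y c hc)]
  have pe : ∀ x y, y ∈ F ∙ x → B x y = 0 := fun x y h => by
    obtain ⟨c, rfl⟩ := mem_span_singleton.1 h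
    simp [S.alt.self_eq_zero]
  have mv : ∀ x y w, x ≠ 0 → y ∉ F ∙ x → w ∉ F ∙ z → B x y = B z w → mu B O x y = mu B O z w :=
    fun x y w hx hy hw e => by
      obtain ⟨g, hg, rfl⟩ := exists_map S.alt S.nd hx hz
      obtain ⟨g', hg', rfl⟩ := exists_Cz S.alt S.nd (v := g y) (fun h => by
        obtain ⟨c, hc⟩ := mem_span_singleton.1 h
        exact hy (mem_span_singleton.2 ⟨c, g.injective (by rw [map_smul, hc])⟩)) hw
        (by rw [hg, e])
      rw [← mu_map hg, ← mu_map hg'.1, show g' (g x) = g x from hg'.2]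
  refine ⟨mu B O z z, mu B O z y₁, mu B O z y₂, fun x y hx hy => ?_⟩
  by_cases h : y ∈ F ∙ x
  · have h1 := pe x y h
    obtain ⟨c, rfl⟩ := mem_span_singleton.1 h
    obtain ⟨g, hg, rfl⟩ := exists_map S.alt S.nd hx hz
    rw [sc _ _ _ (left_ne_zero_of_smul hy), ← mu_map hg, ind_pos ((F ∙ x : Submodule F V) : Set V) h,
      ind_pos {y | B x y = 0} h1]
    ring
  · by_cases h' : B x y = 0
    · rw [mv x y y₁ hx h n₁ (h'.trans e₁.symm), ind_neg ((F ∙ x : Submodule F V) : Set V) h,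
        ind_pos {y | B x y = 0} h']
      ring
    · rw [← sc x y _ (inv_ne_zero h'), mv x _ y₂ hx (smul_notMem h (inv_ne_zero h'))
        (fun a => by simpa [e₂] using pe _ _ a) (by simp [h', e₂]),
        ind_neg ((F ∙ x : Submodule F V) : Set V) h, ind_neg {y | B x y = 0} h']
      ring

theorem jobMom : H51.KS.JobMom.{u, v} := by
  intro F _ _ V _ _ _ B O _ k h₁ h₂ ε S hn hk h0 hs hN
  have : Finite V := Module.finite_of_finite F
  have := Fintype.ofFinite V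
  have cf := cj_facts h0 hs hN
  obtain ⟨m₀, m₁, m₂, hm⟩ := mu_vals S (by omega) fun ω => (cf ω).2.1
  have key : ∀ x, x ≠ 0 → ∀ D : Set V, 0 ∉ D → ∑ ω : Cj B O, ind ω.1 x * (ω.1 ∩ D).ncard =
      m₂ * D.ncard + (m₁ - m₂) * (D ∩ {y | B x y = 0}).ncard +
        (m₀ - m₁) * (D ∩ (F ∙ x : Submodule F V)).ncard := fun x hx D hD => by
    simp only [ncard_sum, mul_sum, ← sum_add_distrib, ind_inter]
    rw [sum_comm]
    refine sum_congr rfl fun y _ => ?_
    have : ∑ ω : Cj B O, ind ω.1 x * (ind ω.1 y * ind D y) = ind D y * mu B O x y := by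
      rw [mu, mul_sum]
      exact sum_congr rfl fun _ _ => by ring
    rw [this, ind_mul fun h => hm x y hx fun e => hD (e ▸ h)]
    ring
  have m0 : ∀ x, x ≠ 0 → ∑ ω : Cj B O, ind ω.1 x = m₀ := fun x hx => by
    have := hm x x hx hx
    rw [ind_pos ((F ∙ x : Submodule F V) : Set V) (mem_span_singleton_self x),
      ind_pos {y | B x y = 0} (S.alt.self_eq_zero x)] at this
    rw [show m₀ = mu B O x x by linear_combination -this]
    exact sum_congr rfl fun ω _ => by rw [← ind_inter, Set.inter_self]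
  obtain ⟨k, rfl⟩ : ∃ j, k = j + 1 := ⟨k - 1, by omega⟩
  obtain ⟨q, hq⟩ : ∃ q : ℚ, q = Nat.card F := ⟨_, rfl⟩
  obtain ⟨P, hP⟩ : ∃ P : ℚ, P = q ^ k := ⟨_, rfl⟩
  have q2 : 2 ≤ q := by rw [hq]; exact_mod_cast two_le_card F
  have P1 : 1 ≤ P := hP ▸ one_le_pow₀ (by linarith)
  have cz : ∀ (U : Submodule F V) (D : Set V), (∀ y, y ∈ D ↔ y ∈ U ∧ y ≠ 0) →
      (D.ncard : ℚ) = q ^ finrank F U - 1 := fun U D h => by
    rw [Set.ext h, hq, eq_sub_iff_add_eq]
    exact_mod_cast ncard_ne_zero U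
  have pe : ∀ x y, y ∈ F ∙ x → B x y = 0 := fun x y h => by
    obtain ⟨c, rfl⟩ := mem_span_singleton.1 h
    simp [S.alt.self_eq_zero]
  obtain ⟨z, hz⟩ := exists_ne_zero' (F := F) (V := V) (by omega)
  have r1 : finrank F (LinearMap.ker (B z)) = 2 * k + 1 := by have := rk_perp S hz; omega
  have w1 : q ^ (2 * (k + 1)) = (q * P) ^ 2 := by rw [hP]; ring
  have w2 : q ^ (2 * k + 1) = q * P ^ 2 := by rw [hP]; ring
  have w3 : q ^ (k + 1) = q * P := by rw [hP]; ring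
  have cM := cz ⊤ {y | y ≠ 0} (by simp)
  rw [finrank_top, hn, w1] at cM
  have E1 := key z hz {y | y ≠ 0} (by simp)
  rw [cM, cz (LinearMap.ker (B z)) _ (by simp [and_comm]), cz (F ∙ z) _ (by simp [and_comm]), r1,
    finrank_span_singleton hz, sum_congr rfl (g := fun ω => ind ω.1 z * O.ncard) fun ω _ => by
      rw [Set.inter_eq_left (t := {y | y ≠ 0}).2 fun y hy (e : y = 0) => (cf ω).1 (e ▸ hy), (cf ω).2.2.1],
    ← sum_mul, m0 z hz, w2] at E1
  have E2 := key z hz {y | B z y = 0 ∧ y ≠ 0} (by simp)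
  rw [cz (LinearMap.ker (B z)) _ (by simp), cz (LinearMap.ker (B z)) (_ ∩ _) (by simp +contextual),
    cz (F ∙ z) ({y | B z y = 0 ∧ y ≠ 0} ∩ (F ∙ z : Submodule F V)) (fun y => ⟨fun h => ⟨h.2, h.1.2⟩, fun h => ⟨⟨pe _ _ h.1, h.2⟩, h.1⟩⟩), r1,
    finrank_span_singleton hz, sum_congr rfl (g := fun ω => ind ω.1 z * h₁) fun ω _ => by
     refine ind_mul fun h => ?_
     rw [show ω.1 ∩ {y | B z y = 0 ∧ y ≠ 0} = {y | y ∈ ω.1 ∧ B z y = 0} from Set.ext fun y =>
        ⟨fun h => ⟨h.1, h.2.1⟩, fun h => ⟨h.1, h.2, fun e => (cf ω).1 (e ▸ h.1)⟩⟩,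
        (cf ω).2.2.2 z hz, ind_pos _ h, add_comm, mul_one, sub_add_cancel],
    ← sum_mul, m0 z hz, w2] at E2
  have E0 : m₀ * ((q * P) ^ 2 - 1) = Fintype.card (Cj B O) * O.ncard := by
    rw [← cM, ncard_sum, mul_sum, ← card_univ, ← nsmul_eq_mul, ← sum_const,
      sum_congr rfl (s₁ := univ) (f := fun _ : Cj B O => (O.ncard : ℚ)) fun ω _ => by
        rw [← (cf ω).2.2.1, ncard_sum], sum_comm]
    refine sum_congr rfl fun x _ => ?_
    by_cases hx : x = 0
    · simp [ind, hx, fun ω => (cf ω).1]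
    · rw [m0 x hx, ind_pos {y | y ≠ 0} hx, mul_one]
  have M0 : (q * P) ^ 2 - 1 ≠ 0 := by
    have : 2 ≤ q * P := by nlinarith
    nlinarith
  obtain ⟨t, ht⟩ : ∃ t : ℚ, t = (O.ncard : ℚ) ^ 2 / ((q * P) ^ 2 - 1) := ⟨_, rfl⟩
  have hg : ∀ ω ω' : Set V, gam F (2 * (k + 1)) O ω ω' = (ω ∩ ω').ncard - t := fun ω ω' => by
    rw [gam, ← hq, w1, ht]
  rw [eq_div_iff M0] at ht
  have vt : Fintype.card (Cj B O) * t = m₀ * O.ncard :=
    mul_right_cancel₀ M0 (by linear_combination (Fintype.card (Cj B O) : ℚ) * ht - O.ncard * E0)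
  have s1 : ∀ ω : Cj B O, ∑ ω' : Cj B O, ((ω.1 ∩ ω'.1).ncard : ℚ) = m₀ * O.ncard := fun ω => by
    simp only [ncard_sum (_ ∩ _), ind_inter]
    rw [sum_comm, ← (cf ω).2.2.1, ncard_sum, mul_sum]
    refine sum_congr rfl fun x _ => ?_
    rw [← mul_sum, mul_comm m₀]
    exact ind_mul fun h => m0 x fun e => (cf ω).1 (e ▸ h)
  have s2 : ∀ ω : Cj B O, ∑ ω' : Cj B O, gam F (2 * (k + 1)) O ω.1 ω'.1 = 0 := fun ω => by
    simp only [hg, sum_sub_distrib, s1, sum_const, card_univ, nsmul_eq_mul, vt, sub_self]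
  refine ⟨s2, (m₀ - m₁) * (q - 1) + (m₁ - m₂) * (h₁ - h₂), ?_, ?_⟩
  · have n1 : (h₁ : ℚ) - h₂ = ε * (q - 1) * P := by rw [hP, hq]; exact_mod_cast hN.sub
    have n2 : (h₂ : ℚ) * (q * P - ε) = O.ncard * (P - ε) := by
      rw [← w3, hP, hq]; exact_mod_cast hN.val
    have e2 : (ε : ℚ) ^ 2 = 1 := by rcases hN.sgn with rfl | rfl <;> norm_num
    have n3 : m₂ * q * P * (q * P - ε) = m₀ * (O.ncard - ε * (q * P - ε)) :=
      mul_left_cancel₀ (a := (q - 1) * P) (by nlinarith)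
        (by linear_combination -(q * P - ε) * (E1 - E2) - m₀ * (q * P - ε) * n1 - m₀ * n2)
    rw [← hq, w3, hg, Set.inter_self, n1]
    linear_combination (q - 1) * (-ε * (q * P - ε) * E2 + ε * m₀ * (q * P - ε) * n1 + ε * m₀ * n2 -
      ε * (P + ε) * n3 + 2 * E0 + 2 * vt + (-m₀ * (ε ^ 2 + 2) - 2 * m₀ * O.ncard + m₀ * q ^ 2 * P ^ 2 -
        m₁ * q * ε * P + m₁ * q ^ 2 * P ^ 2) * e2)
  · obtain ⟨c, hc⟩ : ∃ c : ℚ, c = (m₀ - m₁) * (q - 1) + (m₁ - m₂) * (h₁ - h₂) := ⟨_, rfl⟩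
    obtain ⟨d, hd⟩ : ∃ d : ℚ, d = m₂ * O.ncard ^ 2 + (m₁ - m₂) * h₂ * O.ncard -
      m₀ * O.ncard * t + c * t := ⟨_, rfl⟩
    rw [← hc]
    have s3 : ∀ ω ω' : Cj B O, ∑ ω'' : Cj B O, gam F (2 * (k + 1)) O ω.1 ω''.1 *
        gam F (2 * (k + 1)) O ω''.1 ω'.1 = d + c * gam F (2 * (k + 1)) O ω.1 ω'.1 := fun ω ω' => by
      have a1 : ∑ ω'' : Cj B O, ((ω.1 ∩ ω''.1).ncard : ℚ) * (ω''.1 ∩ ω'.1).ncard =
          ∑ x, ind ω.1 x * (m₂ * O.ncard + (m₁ - m₂) * h₂ + c * ind ω'.1 x) := by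
        simp only [ncard_sum (ω.1 ∩ _), ind_inter, sum_mul]
        rw [sum_comm]
        refine sum_congr rfl fun x _ => ?_
        simp only [mul_assoc]
        rw [← mul_sum]
        refine ind_mul fun h => ?_
        have hx : x ≠ 0 := fun e => (cf ω).1 (e ▸ h)
        have a2 : ((ω'.1 ∩ (F ∙ x : Submodule F V)).ncard : ℚ) = (q - 1) * ind ω'.1 x := by
          by_cases e : x ∈ ω'.1
          · rw [cz (F ∙ x) (ω'.1 ∩ (F ∙ x : Submodule F V)) (fun y => ⟨fun a => ⟨a.2, fun b => (cf ω').1 (b ▸ a.1)⟩, fun a => ⟨by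
              obtain ⟨c, rfl⟩ := mem_span_singleton.1 a.1
              exact ((cf ω').2.1 x c (left_ne_zero_of_smul a.2)).2 e, a.1⟩⟩),
              finrank_span_singleton hx, ind_pos _ e, pow_one, mul_one]
          · rw [ind_neg _ e, mul_zero, Nat.cast_eq_zero, Set.ncard_eq_zero, Set.eq_empty_iff_forall_notMem]
            rintro y ⟨a, b⟩
            obtain ⟨c, rfl⟩ := mem_span_singleton.1 b
            exact e (((cf ω').2.1 x c fun e => (cf ω').1 (by simpa [e] using a)).1 a)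
        rw [key x hx _ (cf ω').1, (cf ω').2.2.1, a2, hc,
          show ((ω'.1 ∩ {y | B x y = 0}).ncard : ℚ) = _ from (cf ω').2.2.2 x hx]
        ring
      have a2 : ∑ ω'' : Cj B O, ((ω''.1 ∩ ω'.1).ncard : ℚ) = m₀ * O.ncard := by
        simp only [Set.inter_comm _ ω'.1, s1]
      simp only [mul_add, sum_add_distrib, ← sum_mul, mul_left_comm _ c, ← mul_sum, ← ind_inter,
        ← ncard_sum, (cf ω).2.2.1] at a1
      simp only [hg, sub_mul, mul_sub, sum_sub_distrib, a1, ← sum_mul, ← mul_sum, s1, a2, sum_const,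
        card_univ, nsmul_eq_mul]
      linear_combination t * vt - hd
    intro ω ω'
    have s4 := sum_congr (s₁ := univ) rfl fun ω' _ => s3 ω ω'
    rw [sum_comm] at s4
    simp only [← mul_sum, s2, sum_add_distrib, mul_zero, sum_const, card_univ, nsmul_eq_mul,
      add_zero] at s4
    have v0 : (Fintype.card (Cj B O) : ℚ) ≠ 0 := Nat.cast_ne_zero.2 (Fintype.card_pos_iff.2 ⟨ω⟩).ne'
    rw [s3, (mul_eq_zero.1 s4.symm).resolve_left v0, zero_add]

end H79.KS
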