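/- KS-SRG: two-distance sets and the final arithmetic. -/
import Cfsg.Agent.H51.KSSpec

set_option autoImplicit false

namespace H79.KS

open Finset H51.KS Polynomial

universe v

theorem int_of_quad {σ : ℚ} {m n : ℤ} (h : σ ^ 2 + m * σ - n = 0) : ∃ s : ℤ, (s : ℚ) = σ :=
  (IsIntegrallyClosed.isIntegral_iff (R := ℤ) (K := ℚ)).1 ⟨X ^ 2 + C m * X - C n, by monicity!, by
    rw [eval₂_sub, eval₂_add, eval₂_mul, eval₂_C, eval₂_C, eval₂_X_pow, eval₂_X]
    exact h⟩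

theorem srg_arith {q P s ε : ℤ} (hq : 3 ≤ q) (hP : q ^ 2 ≤ P) (hs : 2 ≤ s) (hε : ε = 1 ∨ ε = -1)
    (h1 : s * (P - ε) < q * P - ε)
    (h2 : (q * P + ε * q) * (P - ε) * (q * P - ε - s * (P - ε)) <
      2 * (q - 1) * (s - 1) * (q * P - ε)) : False := by
  have a1 : 3 * q ≤ P := by nlinarith
  have a2 : 3 * P ≤ q * P := by nlinarith
  rcases hε with rfl | rfl
  · have b1 : s ≤ q := by
      by_contra! h
      nlinarith [mul_le_mul_of_nonneg_right (show q + 1 ≤ s by omega) (show 0 ≤ P - 1 by omega)]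
    have b2 : q - 1 ≤ q * P - 1 - s * (P - 1) := by
      nlinarith [mul_le_mul_of_nonneg_right b1 (show 0 ≤ P - 1 by omega)]
    have b3 : (q * P - 1) * (2 * (s - 1)) ≤ (q * P + 1 * q) * (P - 1) :=
      mul_le_mul (by omega) (by omega) (by omega) (by omega)
    have b4 := mul_le_mul b3 b2 (by omega) (mul_nonneg (by omega) (by omega))
    linarith
  · have b1 : s ≤ q - 1 := by
      by_contra! h
      nlinarith [mul_le_mul_of_nonneg_right (show q ≤ s by omega) (show 0 ≤ P + 1 by omega)]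
    have b2 : q - 1 ≤ q * P - -1 - s * (P - -1) := by
      nlinarith [mul_le_mul_of_nonneg_right b1 (show 0 ≤ P + 1 by omega)]
    have b3 : (q * P - -1) * (2 * (s - 1)) ≤ (q * P + -1 * q) * (P - -1) := by
      have c1 : 4 * (s - 1) ≤ P - -1 := by nlinarith
      have c2 := mul_le_mul (show q * P - -1 ≤ 2 * (q * P + -1 * q) by omega) c1 (by omega) (by omega)
      linarith
    have b4 := mul_le_mul b3 b2 (by omega) (mul_nonneg (by omega) (by omega))
    linarith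

theorem ite_and_one_zero' (a b : Prop) [Decidable a] [Decidable b] :
    (if a ∧ b then 1 else 0 : ℚ) = (if a then 1 else 0) * if b then 1 else 0 := by
  by_cases a <;> by_cases b <;> simp [*]

theorem jobSRG : JobSRG.{v} := by
  intro Ω _ γ γ₀ γ₁ γ₂ c q k ε hq hk hε h0 h1 hc hd sy two ⟨x₁, y₁, e₁⟩ row sq
  classical
  obtain ⟨k, rfl⟩ : ∃ j, k = j + 1 := ⟨k - 1, by omega⟩
  rw [Nat.add_sub_cancel] at h1
  rw [pow_succ'] at h1 hc
  have hP : (q : ℤ) ^ 2 ≤ (q : ℤ) ^ k := pow_le_pow_right₀ (by omega) (by omega)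
  have hP' : (q : ℚ) ^ 2 ≤ (q : ℚ) ^ k := by exact_mod_cast hP
  have hq' : (3 : ℚ) ≤ q := by exact_mod_cast hq
  have hε' : (ε : ℚ) ≤ 1 ∧ (-1 : ℚ) ≤ ε := by rcases hε with rfl | rfl <;> norm_num
  obtain ⟨P, hPe⟩ : ∃ P : ℚ, P = (q : ℚ) ^ k := ⟨_, rfl⟩
  rw [← hPe] at h1 hc hP'
  have p1 : 0 < P - ε := by nlinarith
  have p2 : P - ε < q * P - ε := by nlinarith
  have p3 : 0 < q * P + ε * q := by nlinarith
  have g1 : 0 < γ₁ := (pos_iff_pos_of_mul_pos (h1 ▸ mul_pos h0 p1)).2 (p1.trans p2)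
  have g2 : γ₁ < γ₀ := lt_of_mul_lt_mul_right (h1 ▸ mul_lt_mul_of_pos_left p2 h0) (p1.trans p2).le
  obtain ⟨y₂, e₂, g3⟩ : ∃ y, γ x₁ y = γ₂ ∧ γ₂ < 0 := by
    by_contra! h
    refine (sum_pos' (fun y _ => ?_) ⟨x₁, mem_univ _, by rwa [hd]⟩).ne' (row x₁)
    by_cases e : x₁ = y
    · rw [← e, hd]
      exact h0.le
    · rcases two _ _ e with a | a
      · exact a ▸ g1.le
      · exact a ▸ h y a
  have n1 : x₁ ≠ y₁ := fun e => g2.ne (by rw [← e₁, ← e, hd])
  have n2 : x₁ ≠ y₂ := fun e => (g3.trans h0).ne (by rw [← e₂, ← e, hd])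
  let N : Ω → Ω → ℕ := fun x y => (univ.filter fun z => γ x z = γ₁ ∧ γ z y = γ₁).card
  have ind : ∀ x y, (γ₁ - γ₂) * (if γ x y = γ₁ then 1 else 0) =
      γ x y - γ₂ - if x = y then γ₀ - γ₂ else 0 := fun x y => by
    by_cases e : x = y
    · rw [if_pos e, ← e, hd, if_neg g2.ne']
      ring
    · rcases two _ _ e with a | a
      · rw [if_neg e, if_pos a, a]
        ring
      · rw [if_neg e, a, if_neg (g3.trans g1).ne]
        ring
  have hN : ∀ x y, (γ₁ - γ₂) ^ 2 * N x y = (c - 2 * (γ₀ - γ₂)) * γ x y +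
      (Fintype.card Ω * γ₂ ^ 2 + 2 * (γ₀ - γ₂) * γ₂) + if x = y then (γ₀ - γ₂) ^ 2 else 0 :=
    fun x y => by
      have a1 : ∀ z, (γ₁ - γ₂) ^ 2 * (if γ x z = γ₁ ∧ γ z y = γ₁ then 1 else 0) =
          γ x z * γ z y - γ₂ * γ x z - γ₂ * γ y z + γ₂ ^ 2 -
            (if x = z then (γ₀ - γ₂) * (γ z y - γ₂) else 0) -
            (if z = y then (γ₀ - γ₂) * (γ x z - γ₂) else 0) +
            if x = z then (if z = y then (γ₀ - γ₂) ^ 2 else 0) else 0 := fun z => by
        rw [ite_and_one_zero', pow_two, mul_mul_mul_comm, ind, ind, sy y z]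
        split_ifs <;> ring
      simp only [N, card_filter]
      push_cast
      rw [mul_sum, sum_congr rfl fun z _ => a1 z]
      simp only [sum_add_distrib, sum_sub_distrib, ← mul_sum, row, sq, sum_ite_eq, sum_ite_eq',
        mem_univ, if_true, sum_const, card_univ, nsmul_eq_mul]
      ring
  have b0 := hN x₁ x₁
  have b1 := hN x₁ y₁
  have b2 := hN x₁ y₂
  rw [if_pos rfl, hd] at b0
  rw [if_neg n1, e₁] at b1
  rw [if_neg n2, e₂] at b2
  have gb : 0 < γ₁ - γ₂ := by linarith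
  obtain ⟨s, hs⟩ := int_of_quad (σ := (γ₀ - γ₂) / (γ₁ - γ₂)) (m := (N x₁ y₁ : ℤ) - N x₁ y₂)
    (n := (N x₁ x₁ : ℤ) - N x₁ y₂) (by
      have c1 : (γ₁ - γ₂) * ((N x₁ y₁ : ℚ) - N x₁ y₂) = c - 2 * (γ₀ - γ₂) :=
        mul_left_cancel₀ gb.ne' (by linear_combination b1 - b2)
      push_cast
      field_simp
      linear_combination (γ₀ - γ₂) * c1 - b0 + b2)
  rw [eq_div_iff gb.ne'] at hs
  have s2 : 2 ≤ s := by
    have : (1 : ℚ) < s := lt_of_mul_lt_mul_right (by linarith) gb.le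
    have : 1 < s := by exact_mod_cast this
    omega
  have s2' : (2 : ℚ) ≤ s := by exact_mod_cast s2
  have d1 : c * γ₀ + Fintype.card Ω * (γ₁ * γ₂) = (γ₀ - γ₁) * (γ₀ - γ₂) := by
    have a1 : ∑ y, (γ x₁ y - γ₁) * (γ x₁ y - γ₂) = (γ₀ - γ₁) * (γ₀ - γ₂) := by
      rw [sum_eq_single x₁ (fun y _ e => by rcases two _ _ e.symm with a | a <;> simp [a])
        (by simp), hd]
    rw [← a1, sum_congr rfl (g := fun y => γ x₁ y * γ y x₁ - (γ₁ + γ₂) * γ x₁ y + γ₁ * γ₂)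
      fun y _ => by rw [sy y]; ring]
    simp only [sum_add_distrib, sum_sub_distrib, ← mul_sum, row, sq, sum_const, card_univ,
      nsmul_eq_mul, hd]
    ring
  have v0 : (0 : ℚ) < Fintype.card Ω := by exact_mod_cast Fintype.card_pos_iff.2 ⟨x₁⟩
  generalize (Fintype.card Ω : ℚ) = w at v0 d1 hc
  have d2 : w * (γ₁ * (γ₀ - s * γ₁)) < c * γ₀ * (s - 1) := by
    have := mul_pos (mul_pos (sub_pos.2 g2) (sub_pos.2 (g3.trans h0))) (show (0 : ℚ) < s - 1 by linarith)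
    rw [← d1] at this
    have e : γ₀ - s * γ₁ = -(γ₂ * (s - 1)) := by linear_combination -hs
    rw [e]
    linarith
  have d3 : s * γ₁ < γ₀ := by nlinarith
  have p4 : 0 < q * P - ε := p1.trans p2
  refine srg_arith (q := q) (P := (q : ℤ) ^ k) (s := s) (by omega) hP s2 hε ?_ ?_
  · have : s * (P - ε) < q * P - ε := lt_of_mul_lt_mul_left (a := γ₀) (by nlinarith) h0.le
    rw [hPe] at this
    exact_mod_cast this
  · have : (q * P + ε * q) * (P - ε) * (q * P - ε - s * (P - ε)) <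
        2 * (q - 1) * (s - 1) * (q * P - ε) := by
      refine lt_of_mul_lt_mul_left (a := w * γ₀ ^ 2) ?_ (by positivity)
      have := mul_lt_mul_of_pos_left d2 (mul_pos p3 (pow_pos p4 2))
      calc _ = (q * P + ε * q) * (q * P - ε) ^ 2 * (w * (γ₁ * (γ₀ - s * γ₁))) := by
            linear_combination -w * (q * P + ε * q) *
              (γ₀ * (q * P - ε) - s * (γ₁ * (q * P - ε) + γ₀ * (P - ε))) * h1
        _ < _ := this
        _ = _ := by linear_combination (q * P - ε) * γ₀ * (s - 1) * hc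
    rw [hPe] at this
    exact_mod_cast this

end H79.KS
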