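import Cfsg.Agent.H18.PSolv
import Cfsg.Agent.H45.DadeGroup
import Cfsg.Agent.H2.PrimeCore

/-! Local analysis: `p`-central elements when any two Sylow `p`-subgroups generate a
`p`-solvable group. -/

set_option autoImplicit false
set_option linter.unusedSectionVars false

namespace H79.PS

open Cfsg

variable {G : Type*} [Group G] [Finite G] {p : ℕ} [hp : Fact p.Prime]

theorem eq_one_of_pow {x : G} {k : ℕ} (h : x ^ p ^ k = 1) (h' : ¬ p ∣ orderOf x) : x = 1 := by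
  obtain ⟨j, -, hj⟩ := (Nat.dvd_prime_pow hp.out).1 (orderOf_dvd_of_pow_eq_one h)
  rcases j with _ | j
  · simpa using hj
  · exact (h' (hj ▸ dvd_pow_self p j.succ_ne_zero)).elim

theorem pow_of_mem {Q : Subgroup G} (hQ : IsPGroup p Q) {x : G} (hx : x ∈ Q) :
    ∃ k, x ^ p ^ k = 1 := by
  obtain ⟨k, hk⟩ := hQ ⟨x, hx⟩
  exact ⟨k, congrArg Subtype.val hk⟩

theorem eq_one_of_mem {Q : Subgroup G} (hQ : IsPGroup p Q) {x : G} (hx : x ∈ Q)
    (h' : ¬ p ∣ orderOf x) : x = 1 :=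
  (pow_of_mem hQ hx).elim fun _ hk => eq_one_of_pow hk h'

theorem reg_of_mem {E : Subgroup G} (hE : ¬ p ∣ Nat.card E) {x : G} (hx : x ∈ E) :
    ¬ p ∣ orderOf x := fun h => hE (h.trans (E.orderOf_dvd_natCard hx))

theorem triv_of_cent (hs : IsPSolvable p G) (h0 : pPrimeCore p G = ⊥) {e : G}
    (he : ¬ p ∣ orderOf e) (hc : ∀ r ∈ pCore p G, Commute r e) : e = 1 :=
  eq_one_of_mem (H18.isPGroup_pCore p) (H18.centralizer_pCore_le hs h0 fun r hr => hc r hr) he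

theorem comm_of_norm {E : Subgroup G} (hE : ¬ p ∣ Nat.card E) {r : G} (hr : r ∈ pCore p G)
    (hn : ∀ e ∈ E, r * e * r⁻¹ ∈ E) {e : G} (he : e ∈ E) : Commute r e := by
  have h1 : r * e * r⁻¹ * e⁻¹ ∈ pCore p G := by
    have := mul_mem hr (Subgroup.Normal.conj_mem inferInstance _ (inv_mem hr) e)
    simpa [mul_assoc] using this
  have h2 := eq_one_of_mem (H18.isPGroup_pCore p) h1
    (reg_of_mem hE (mul_mem (hn e he) (inv_mem he)))
  rw [mul_inv_eq_one, mul_inv_eq_iff_eq_mul] at h2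
  exact h2

theorem not_dvd_map {H : Type*} [Group H] {E : Subgroup G} (hE : ¬ p ∣ Nat.card E) (f : G →* H) :
    ¬ p ∣ Nat.card (E.map f) := fun h => hE (h.trans (Subgroup.card_map_dvd E f))

/-- A `p'`-subgroup normalized by a Sylow `p`-subgroup lies in `O_{p'}`. -/
theorem le_core_of_norm (hs : IsPSolvable p G) (S : Sylow p G) {E : Subgroup G}
    (hE : ¬ p ∣ Nat.card E) (hn : ∀ s ∈ (S : Subgroup G), ∀ e ∈ E, s * e * s⁻¹ ∈ E) :
    E ≤ pPrimeCore p G := fun e he => by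
  rw [← QuotientGroup.eq_one_iff]
  have hE' := not_dvd_map hE (QuotientGroup.mk' (pPrimeCore p G))
  refine triv_of_cent (H18.isPSolvable_quotient hs _) (H18.pPrimeCore_quotient_pPrimeCore p)
    (reg_of_mem hE' ⟨e, he, rfl⟩) fun r hr => comm_of_norm hE' hr ?_ ⟨e, he, rfl⟩
  obtain ⟨s, hs, rfl⟩ := (H18.isPGroup_pCore p).le_sylow_of_normal
    (S.mapSurjective (QuotientGroup.mk'_surjective (pPrimeCore p G))) hr
  rintro _ ⟨e, he, rfl⟩
  exact ⟨_, hn s hs e he, by simp⟩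

/-- A quadratic element centralizes the `p'`-subgroups normalized by its centralizer. -/
theorem cent_of_quad (hs : IsPSolvable p G) (h0 : pPrimeCore p G = ⊥) {E : Subgroup G}
    (hE : ¬ p ∣ Nat.card E) {d : G} (hd : ∀ e ∈ E, d * e * d⁻¹ ∈ E)
    (h1 : ∀ r ∈ pCore p G, Commute r d → ∀ e ∈ E, r * e * r⁻¹ ∈ E)
    (h2 : ∀ r ∈ pCore p G, Commute d (r * d * r⁻¹)) {e : G} (he : e ∈ E) : Commute d e := by
  have hN : (pCore p G).Normal := inferInstance
  have hf : d * e * d⁻¹ * e⁻¹ ∈ E := mul_mem (hd e he) (inv_mem he)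
  suffices h : d * e * d⁻¹ * e⁻¹ = 1 by
    rw [mul_inv_eq_one, mul_inv_eq_iff_eq_mul] at h
    exact h
  refine triv_of_cent hs h0 (reg_of_mem hE hf) fun r hr => ?_
  set f := d * e * d⁻¹ * e⁻¹ with hfd
  have k1 : ∀ r ∈ pCore p G, ∀ t : G, t * r * t⁻¹ * r⁻¹ ∈ pCore p G := fun r hr t =>
    mul_mem (hN.conj_mem r hr t) (inv_mem hr)
  have k2 : ∀ r ∈ pCore p G, Commute (d * r * d⁻¹ * r⁻¹) d := fun r hr => by
    have := (Commute.refl d).mul_left (h2 r hr).symm.inv_left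
    simpa [mul_assoc] using this
  have k3 : ∀ r ∈ pCore p G, Commute (d⁻¹ * r * d⁻¹⁻¹ * r⁻¹) d := fun r hr => by
    have := (Commute.refl d).inv_left.mul_left (h2 r hr).symm
    simpa [mul_assoc] using this
  have hr1 : e⁻¹ * r * e⁻¹⁻¹ ∈ pCore p G := hN.conj_mem r hr e⁻¹
  set a1 := d⁻¹ * (e⁻¹ * r * e⁻¹⁻¹) * d⁻¹⁻¹ * (e⁻¹ * r * e⁻¹⁻¹)⁻¹ with ha1
  set a2 := d * r * d⁻¹ * r⁻¹ with ha2
  have c1 : ∀ x ∈ E, Commute a1 x := fun x hx =>
    comm_of_norm hE (k1 _ hr1 _) (h1 _ (k1 _ hr1 _) (k3 _ hr1)) hx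
  have c2 : ∀ x ∈ E, Commute a2 x := fun x hx =>
    comm_of_norm hE (k1 _ hr _) (h1 _ (k1 _ hr _) (k2 _ hr)) hx
  have e1 : f * r * f⁻¹ = a1 * a2 * r := by
    calc f * r * f⁻¹ = d * (e * a1) * e⁻¹ * r * d⁻¹ := by simp [hfd, ha1, mul_assoc]
      _ = (d * a1) * r * d⁻¹ := by rw [← (c1 e he).eq]; simp [mul_assoc]
      _ = a1 * a2 * r := by
        rw [← show a1 * d = d * a1 from (k3 _ hr1).eq]; simp [ha2, mul_assoc]
  have c3 : Commute (a1 * a2) f := (c1 f hf).mul_left (c2 f hf)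
  have e2 : ∀ k : ℕ, f ^ k * r * (f ^ k)⁻¹ = (a1 * a2) ^ k * r := fun k => by
    induction k with
    | zero => simp
    | succ k ih =>
      calc f ^ (k + 1) * r * (f ^ (k + 1))⁻¹ = f * (f ^ k * r * (f ^ k)⁻¹) * f⁻¹ := by
            simp [pow_succ', mul_assoc]
        _ = (a1 * a2) ^ k * (f * r * f⁻¹) := by
            rw [ih, ← mul_assoc, ← (c3.pow_left k).eq]; simp [mul_assoc]
        _ = (a1 * a2) ^ (k + 1) * r := by rw [e1, pow_succ]; simp [mul_assoc]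
  have e3 : a1 * a2 = 1 := by
    refine eq_one_of_mem (H18.isPGroup_pCore p) (mul_mem (k1 _ hr1 _) (k1 _ hr _)) fun h =>
      reg_of_mem hE hf (h.trans (orderOf_dvd_of_pow_eq_one ?_))
    simpa using (e2 (orderOf f)).symm
  rw [e3, one_mul, mul_inv_eq_iff_eq_mul] at e1
  exact e1.symm

theorem comm_mod (hs : IsPSolvable p G) {d d' : G} (hd : d ^ p = 1)
    (hc : ∀ S : Subgroup G, IsPGroup p S → d ∈ S → ∀ r ∈ S, Commute d (r * d * r⁻¹))
    (hE : ∀ Q : Subgroup G, IsPGroup p Q → (∀ r ∈ Q, Commute r d) → ∃ E : Subgroup G,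
      ¬ p ∣ Nat.card E ∧ d * d' * d⁻¹ * d'⁻¹ ∈ E ∧ ∀ r ∈ Q, ∀ e ∈ E, r * e * r⁻¹ ∈ E) :
    d * d' * d⁻¹ * d'⁻¹ ∈ pPrimeCore p G := by
  have h1 : IsPGroup p (Subgroup.zpowers d) := fun x => ⟨1, by
    obtain ⟨_, k, rfl⟩ := x
    refine Subtype.ext ?_
    change (d ^ k) ^ p ^ 1 = 1
    rw [pow_one, ← zpow_natCast, ← zpow_mul, mul_comm, zpow_mul, zpow_natCast, hd, one_zpow]⟩
  obtain ⟨S, hS⟩ := h1.exists_le_sylow
  have hdS : d ∈ (S : Subgroup G) := hS (Subgroup.mem_zpowers d)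
  obtain ⟨E, hE, hm, hn⟩ := hE (S ⊓ Subgroup.centralizer {d}) (S.2.to_inf_left)
    fun r hr => (Subgroup.mem_centralizer_singleton_iff.1 hr.2)
  set π := QuotientGroup.mk' (pPrimeCore p G) with hπ
  have hE' := not_dvd_map hE π
  have hl : ∀ r ∈ pCore p (G ⧸ pPrimeCore p G), ∃ s ∈ (S : Subgroup G), π s = r := fun r hr =>
    (H18.isPGroup_pCore p).le_sylow_of_normal
      (S.mapSurjective (QuotientGroup.mk'_surjective (pPrimeCore p G))) hr
  have hn' : ∀ s ∈ (S : Subgroup G), Commute s d → ∀ e ∈ E.map π, π s * e * (π s)⁻¹ ∈ E.map π := by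
    rintro s hs hsd _ ⟨e, he, rfl⟩
    exact ⟨_, hn s ⟨hs, Subgroup.mem_centralizer_singleton_iff.2 hsd⟩ e he, by simp⟩
  have h2 := cent_of_quad (H18.isPSolvable_quotient hs _) (H18.pPrimeCore_quotient_pPrimeCore p)
    hE' (d := π d) (hn' d hdS (Commute.refl d)) (fun r hr hrd => ?_) (fun r hr => ?_) ⟨_, hm, rfl⟩
  · rw [← QuotientGroup.eq_one_iff]
    refine eq_one_of_pow (k := 1) ?_ (reg_of_mem hE' ⟨_, hm, rfl⟩)
    have h3 : Commute (π d) (π (d' * d⁻¹ * d'⁻¹)) := by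
      have := (Commute.refl (π d)).inv_right.mul_right h2
      simpa [mul_assoc] using this
    have h4 : π (d * d' * d⁻¹ * d'⁻¹) = π d * π (d' * d⁻¹ * d'⁻¹) := by simp [mul_assoc]
    change π (d * d' * d⁻¹ * d'⁻¹) ^ p ^ 1 = 1
    rw [h4, pow_one, h3.mul_pow, ← map_pow, ← map_pow, conj_pow, inv_pow, hd]
    simp
  · obtain ⟨s, hs, rfl⟩ := hl r hr
    refine hn' s hs ?_
    have h3 : s * d * s⁻¹ * d⁻¹ = 1 := eq_one_of_mem S.2
      (mul_mem (mul_mem (mul_mem hs hdS) (inv_mem hs)) (inv_mem hdS))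
      (reg_of_mem (H2.not_dvd_card_pPrimeCore p G) ((QuotientGroup.eq_one_iff _).1 (by
        change π _ = 1
        simp [hrd.eq])))
    rw [mul_inv_eq_one, mul_inv_eq_iff_eq_mul] at h3
    exact h3
  · obtain ⟨s, hs, rfl⟩ := hl r hr
    simpa using (hc S S.2 hdS s hs).map π

theorem comm_mod' (hs : IsPSolvable p G) {d d' : G} (S S' : Sylow p G)
    (hd : ∀ s ∈ (S : Subgroup G), Commute s d) (hd' : ∀ s ∈ (S' : Subgroup G), Commute s d') :
    d * d' * d⁻¹ * d'⁻¹ ∈ pPrimeCore p G := by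
  have key : ∀ (z : G) (S : Sylow p G), (∀ s ∈ (S : Subgroup G), Commute s z) →
      (z : G ⧸ pPrimeCore p G) ∈ Subgroup.centralizer
        (pCore p (G ⧸ pPrimeCore p G) : Set (G ⧸ pPrimeCore p G)) := by
    intro z S hz a ha
    obtain ⟨s, hs, rfl⟩ := (H18.isPGroup_pCore p).le_sylow_of_normal
      (S.mapSurjective (QuotientGroup.mk'_surjective (pPrimeCore p G))) ha
    exact congrArg (QuotientGroup.mk' _) (hz s hs)
  have := key d S hd _ (H18.centralizer_pCore_le (H18.isPSolvable_quotient hs _)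
    (H18.pPrimeCore_quotient_pPrimeCore p) (key d' S' hd'))
  rw [← QuotientGroup.eq_one_iff]
  simp [← this]

theorem comm_closure {s : Set G} (hc : ∀ a ∈ s, ∀ b ∈ s, Commute a b) {x y : G}
    (hx : x ∈ Subgroup.closure s) (hy : y ∈ Subgroup.closure s) : Commute x y := by
  have h1 : Subgroup.closure s ≤ Subgroup.centralizer s :=
    (Subgroup.closure_le _).2 fun a ha b hb => hc b hb a ha
  have h2 : Subgroup.closure s ≤ Subgroup.centralizer (Subgroup.closure s : Set G) :=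
    (Subgroup.closure_le _).2 fun a ha b hb => (h1 hb a ha).symm
  exact h2 hy x hx

theorem pow_closure {s : Set G} (hc : ∀ a ∈ s, ∀ b ∈ s, Commute a b) (h : ∀ a ∈ s, a ^ p = 1)
    {x : G} (hx : x ∈ Subgroup.closure s) : x ^ p = 1 := by
  induction hx using Subgroup.closure_induction with
  | mem a ha => exact h a ha
  | one => simp
  | mul a b ha hb iha ihb => rw [(comm_closure hc ha hb).mul_pow, iha, ihb, one_mul]
  | inv a _ ih => rw [inv_pow, ih, inv_one]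

/-- `O_{p'}(H)` as a subgroup of `G`. -/
def oc (p : ℕ) (H : Subgroup G) : Subgroup G := (pPrimeCore p H).map H.subtype

theorem oc_le {H : Subgroup G} : oc p H ≤ H := Subgroup.map_subtype_le _

theorem oc_card (H : Subgroup G) : ¬ p ∣ Nat.card (oc p H) :=
  not_dvd_map (H2.not_dvd_card_pPrimeCore p H) _

theorem mem_oc {H : Subgroup G} {x : H} : (x : G) ∈ oc p H ↔ x ∈ pPrimeCore p H :=
  Subgroup.mem_map_iff_mem (f := H.subtype) H.subtype_injective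

theorem oc_conj {H : Subgroup G} {h o : G} (hh : h ∈ H) (ho : o ∈ oc p H) :
    h * o * h⁻¹ ∈ oc p H := by
  obtain ⟨o, ho, rfl⟩ := ho
  exact ⟨_, Subgroup.Normal.conj_mem inferInstance o ho ⟨h, hh⟩, rfl⟩

theorem oc_conj' {H : Subgroup G} {h o : G} (hh : h ∈ H) (ho : o ∈ oc p H) :
    h⁻¹ * o * h ∈ oc p H := by
  simpa using oc_conj (inv_mem hh) ho

theorem mem_norm_oc {H : Subgroup G} {h : G} (hh : h ∈ H) :
    h ∈ Subgroup.normalizer (oc p H : Set G) :=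
  Subgroup.mem_normalizer_iff.2 fun o => ⟨oc_conj hh, fun ho => by
    simpa [mul_assoc] using oc_conj' hh ho⟩

theorem cop {x : G} {k : ℕ} (h : x ^ p ^ k = 1) {n : ℕ} (hn : ¬ p ∣ n) : (orderOf x).Coprime n :=
  Nat.Coprime.coprime_dvd_left (orderOf_dvd_of_pow_eq_one h)
    ((hp.out.coprime_iff_not_dvd.2 hn).pow_left k)

theorem coset_conj {E : Subgroup G} (hE : ¬ p ∣ Nat.card E) {u o : G} {k : ℕ}
    (hu : u ^ p ^ k = 1) (hn : u ∈ Subgroup.normalizer (E : Set G)) (ho : o ∈ E) :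
    ∃ c ∈ E, Commute u c ∧ IsConj (u * c) (u * o) := by
  obtain ⟨x, -, c, hc, h1, h2⟩ := H45.coprime_coset_conj E u hn (cop hu hE) (u * o * u⁻¹)
    ((Subgroup.mem_normalizer_iff.1 hn o).1 ho)
  exact ⟨c, hc, h1.symm, (isConj_iff.2 ⟨x, by rw [← h1, ← h2]; simp⟩).symm⟩

theorem conj_of_cong {E : Subgroup G} (hE : ¬ p ∣ Nat.card E) {u y : G} {k j : ℕ}
    (hu : u ^ p ^ k = 1) (hy : y ^ p ^ j = 1) (hn : u ∈ Subgroup.normalizer (E : Set G))
    (ho : u⁻¹ * y ∈ E) : IsConj u y := by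
  obtain ⟨c, hc, h1, h2⟩ := coset_conj hE hu hn ho
  rw [mul_inv_cancel_left] at h2
  have h3 : (u * c) ^ p ^ j = 1 := isConj_one_right.1 (hy ▸ (h2.pow (p ^ j)).symm)
  have h4 : c = 1 := by
    refine eq_one_of_pow (k := k + j) ?_ (reg_of_mem hE hc)
    have h5 : (u * c) ^ p ^ (k + j) = 1 := by rw [pow_add, mul_comm (p ^ k), pow_mul, h3, one_pow]
    rwa [h1.mul_pow, pow_add, pow_mul, hu, one_pow, one_mul, ← pow_add] at h5
  rwa [h4, mul_one] at h2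

theorem uniq {H Q : Subgroup G} (hQ : IsPGroup p Q) (hQH : Q ≤ H) {a b y : G} (ha : a ∈ Q)
    (hb : b ∈ Q) (h1 : a⁻¹ * y ∈ oc p H) (h2 : ¬ p ∣ orderOf (b⁻¹ * y)) : a = b := by
  have hab : b⁻¹ * a ∈ Q := mul_mem (inv_mem hb) ha
  obtain ⟨k, hk⟩ := pow_of_mem hQ hab
  obtain ⟨c, hc, h3, h4⟩ := coset_conj (oc_card H) hk (mem_norm_oc (hQH hab)) h1
  have h5 : b⁻¹ * a * (a⁻¹ * y) = b⁻¹ * y := by simp [mul_assoc]
  rw [h5] at h4
  have h6 : orderOf (b⁻¹ * a) ∣ orderOf (b⁻¹ * a * c) := by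
    rw [h3.orderOf_mul_eq_mul_orderOf_of_coprime (cop hk (reg_of_mem (oc_card H) hc))]
    exact dvd_mul_right _ _
  obtain ⟨t, ht⟩ := isConj_iff.1 h4
  have h7 : orderOf (b⁻¹ * y) = orderOf (b⁻¹ * a * c) := by
    rw [← ht]; exact orderOf_injective (MulAut.conj t).toMonoidHom (MulAut.conj t).injective _
  exact (inv_mul_eq_one.1 (eq_one_of_pow hk fun h => h2 (h7 ▸ h.trans h6))).symm

end H79.PS
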