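import Cfsg.Agent.H87.PairA
import Cfsg.Agent.H30.Counting
import Cfsg.Agent.H30.ClassSum
import Cfsg.Agent.H34.Prin
import Cfsg.Agent.H29.Central

/-! A count in the principal block for a `p`-subgroup matched with each of its conjugates. -/

set_option autoImplicit false
set_option linter.unusedSectionVars false

namespace H79.PS

open Cfsg H28 H35 H41 H87
open scoped ComplexConjugate

variable {G : Type*} [Group G]

theorem conv [Fintype G] {χ : G → ℂ} (hχ : IsIrrCharacter G χ) (x y : G) :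
    (∑ h, conj (χ (h * x)) * χ (h * y)) * χ 1 = Nat.card G * χ (x⁻¹ * y) := by
  rw [← H30.sum_irr_mul_irr_inv_mul hχ]
  congr 1
  refine Fintype.sum_equiv ((Equiv.mulRight x).trans (Equiv.inv G)) _ _ fun h => ?_
  rw [← hχ.isCharacter.apply_inv]
  simp [mul_assoc]

theorem re_nat (n : ℕ) (z : ℂ) : ((n : ℂ) * z).re = n * z.re := by simp

theorem re_inv [Finite G] {χ : G → ℂ} (hχ : IsCharacter G χ) (x y : G) :
    (χ (y⁻¹ * x)).re = (χ (x⁻¹ * y)).re := by
  rw [← Complex.conj_re, ← hχ.apply_inv]; simp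

/-- The quadrilateral inequality. -/
theorem quad [Finite G] {χ : G → ℂ} (hχ : IsIrrCharacter G χ) (a b c d : G) :
    0 ≤ 4 * (χ 1).re + 2 * (-(χ (a⁻¹ * b)).re + (χ (a⁻¹ * c)).re - (χ (a⁻¹ * d)).re -
      (χ (b⁻¹ * c)).re + (χ (b⁻¹ * d)).re - (χ (c⁻¹ * d)).re) := by
  cases nonempty_fintype G
  obtain ⟨n, hn, h1⟩ := hχ.exists_degree_pos
  set f : G → ℂ := fun h => χ (h * a) - χ (h * b) + χ (h * c) - χ (h * d) with hf
  have h2 : (∑ h, conj (f h) * f h) * χ 1 = Nat.card G * (χ (a⁻¹ * a) - χ (a⁻¹ * b) +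
      χ (a⁻¹ * c) - χ (a⁻¹ * d) - (χ (b⁻¹ * a) - χ (b⁻¹ * b) + χ (b⁻¹ * c) - χ (b⁻¹ * d)) +
      (χ (c⁻¹ * a) - χ (c⁻¹ * b) + χ (c⁻¹ * c) - χ (c⁻¹ * d)) -
      (χ (d⁻¹ * a) - χ (d⁻¹ * b) + χ (d⁻¹ * c) - χ (d⁻¹ * d))) := by
    simp only [mul_add, mul_sub, ← conv hχ, ← add_mul, ← sub_mul, ← Finset.sum_add_distrib,
      ← Finset.sum_sub_distrib]
    congr 1
    exact Finset.sum_congr rfl fun h _ => by simp only [hf, map_add, map_sub]; ring
  have h3 : 0 ≤ ((∑ h, conj (f h) * f h) * χ 1).re := by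
    simp only [Complex.conj_mul', h1]
    norm_cast
    positivity
  rw [h2, re_nat] at h3
  have h4 : (0 : ℝ) < Nat.card G := by exact_mod_cast Nat.card_pos
  have h5 := (mul_nonneg_iff_of_pos_left h4).1 h3
  simp only [Complex.add_re, Complex.sub_re, inv_mul_cancel] at h5
  rw [re_inv hχ.isCharacter a b, re_inv hχ.isCharacter a c, re_inv hχ.isCharacter a d,
    re_inv hχ.isCharacter b c, re_inv hχ.isCharacter b d, re_inv hχ.isCharacter c d] at h5
  linarith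

/-- A matching of `W` with each conjugate. -/
structure Mt (W : Subgroup G) (π : G → W → G) : Prop where
  bij : ∀ g, ∃ σ : W ≃ W, ∀ w, π g w = g * σ w * g⁻¹
  cj : ∀ g (x w : W), IsConj ((x : G)⁻¹ * w) ((π g x)⁻¹ * π g w)

/-- The value condition for a character. -/
def Val (W : Subgroup G) (π : G → W → G) (χ : G → ℂ) : Prop :=
  ∀ g (x w : W), x ≠ w → χ ((x : G)⁻¹ * π g w) = χ ((x : G)⁻¹ * w)

variable {W : Subgroup G} {π : G → W → G}

theorem avg [Fintype G] [Fintype W] (hπ : Mt W π) {χ : G → ℂ} (hχ : IsIrrCharacter G χ)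
    (hv : Val W π χ) (x : W) : (∑ g, (χ 1 - χ ((x : G)⁻¹ * π g x))) * χ 1 =
      Nat.card G * (∑ w : W, χ w) * (χ 1 - χ (x : G)⁻¹) := by
  classical
  have h1 : ∀ g, ∑ w : W, χ (g * w * g⁻¹ * (x : G)⁻¹) =
      χ ((x : G)⁻¹ * π g x) - χ 1 + ∑ w : W, χ w := fun g => by
    obtain ⟨σ, hσ⟩ := hπ.bij g
    rw [← Equiv.sum_comp σ, ← Equiv.sum_comp (Equiv.mulLeft x⁻¹) (fun w : W => χ w),
      ← Finset.add_sum_erase _ _ (Finset.mem_univ x),
      ← Finset.add_sum_erase _ _ (Finset.mem_univ x)]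
    simp only [← hσ, hχ.isClassFunction.mul_comm _ (x : G)⁻¹]
    rw [Finset.sum_congr rfl fun w hw => hv g x w (Finset.ne_of_mem_erase hw).symm]
    simp
    ring
  have h2 : (∑ g, ∑ w : W, χ (g * w * g⁻¹ * (x : G)⁻¹)) * χ 1 =
      Nat.card G * (∑ w : W, χ w) * χ (x : G)⁻¹ := by
    rw [Finset.sum_comm, Finset.sum_mul, Finset.mul_sum, Finset.sum_mul]
    exact Finset.sum_congr rfl fun w _ => H30.sum_conj_mul_irr hχ _ _
  simp only [h1, Finset.sum_add_distrib, Finset.sum_sub_distrib, Finset.sum_const,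
    Finset.card_univ, nsmul_eq_mul, ← Nat.card_eq_fintype_card] at h2 ⊢
  linear_combination -h2

theorem sum_nat [Finite G] [Fintype W] {χ : G → ℂ} (hχ : IsCharacter G χ) :
    ∃ m : ℕ, ∑ w : W, χ w = m := by
  obtain ⟨m, hm⟩ := (hχ.restrict W).classInner_nat isCharacter_one
  rw [classInner_one_right, inv_mul_eq_iff_eq_mul₀ (Nat.cast_ne_zero.2 Nat.card_pos.ne')] at hm
  exact ⟨Nat.card W * m, by rw [hm]; push_cast; ring⟩

theorem re_le [Finite G] {χ : G → ℂ} (hχ : IsCharacter G χ) (g : G) : (χ g).re ≤ (χ 1).re :=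
  (Complex.re_le_norm _).trans (hχ.norm_le g)

theorem ker_of_sum_zero [Finite G] [Fintype W] (hπ : Mt W π) {χ : G → ℂ}
    (hχ : IsIrrCharacter G χ) (hv : Val W π χ) (h0 : ∑ w : W, χ w = 0) (x : W) (g : G) :
    (x : G)⁻¹ * π g x ∈ charKer χ := by
  cases nonempty_fintype G
  have h1 := avg hπ hχ hv x
  rw [h0, mul_zero, zero_mul, mul_eq_zero] at h1
  have h2 := congrArg Complex.re (h1.resolve_right hχ.apply_one_ne_zero)
  rw [Complex.re_sum, Complex.zero_re, Finset.sum_eq_zero_iff_of_nonneg fun g _ => by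
    rw [Complex.sub_re, sub_nonneg]; exact re_le hχ.isCharacter _] at h2
  have h3 := h2 g (Finset.mem_univ _)
  rw [Complex.sub_re, sub_eq_zero] at h3
  exact hχ.isCharacter.mem_charKer_iff_re.2 h3.symm

variable {p : ℕ} [hp : Fact p.Prime] {M : Ideal AlgInt} [M.IsMaximal]

theorem orth [Fintype G] (hM : IsPModular p M) {u y : G} (hu : ∃ k, orderOf u = p ^ k)
    (h1 : u ≠ 1) (hy : ¬ p ∣ orderOf y) :
    ∑ χ ∈ bF (principalBlock M G), (χ : G → ℂ) y * conj ((χ : G → ℂ) u) = 0 := by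
  rw [← H34.bker_eq_sum_bF]
  exact bker_prin_eq_zero hM (isPPart_one_of_not_dvd hy) (isPPart_self hp.out hu)
    fun h => h1 (isConj_one_right.1 h)

theorem ord_of_mem [Finite G] (hW : IsPGroup p W) (u : W) : ∃ k, orderOf (u : G) = p ^ k := by
  rw [Subgroup.orderOf_coe]; exact (IsPGroup.iff_orderOf.1 hW) u

theorem rel [Fintype G] [Fintype W] (hM : IsPModular p M) (hW : IsPGroup p W) (hπ : Mt W π)
    (hreg : ∀ g (x : W), ¬ p ∣ orderOf ((x : G)⁻¹ * π g x))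
    (hv : ∀ χ ∈ principalBlock M G, Val W π χ) (x : W) {u : W} (hu : u ≠ 1) :
    ∑ χ ∈ bF (principalBlock M G), (∑ w : W, (χ : G → ℂ) w) / (χ : G → ℂ) 1 *
      (((χ : G → ℂ) 1 - (χ : G → ℂ) x) * conj ((χ : G → ℂ) u)) = 0 := by
  have hu1 : (u : G) ≠ 1 := fun h => hu (Subtype.ext h)
  have h0 : (Nat.card G : ℂ) ≠ 0 := Nat.cast_ne_zero.2 Nat.card_pos.ne'
  apply mul_left_cancel₀ h0
  rw [mul_zero, Finset.mul_sum, Finset.sum_congr rfl (g := fun χ : IrrCharacter G => ∑ g,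
    ((χ : G → ℂ) 1 - (χ : G → ℂ) (((x⁻¹ : W) : G)⁻¹ * π g x⁻¹)) * conj ((χ : G → ℂ) u))
    fun χ hχ => ?_, Finset.sum_comm]
  · refine Finset.sum_eq_zero fun g _ => ?_
    simp only [sub_mul, Finset.sum_sub_distrib]
    rw [orth hM (ord_of_mem hW u) hu1 (by simp [hp.out.ne_one]),
      orth hM (ord_of_mem hW u) hu1 (hreg g x⁻¹), sub_zero]
  · have h1 := avg hπ χ.2 (hv χ (mem_bF.1 hχ)) x⁻¹
    have h2 := χ.2.apply_one_ne_zero
    rw [← Finset.sum_mul]
    rw [InvMemClass.coe_inv, inv_inv] at h1 ⊢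
    field_simp
    linear_combination (-conj ((χ : G → ℂ) u)) * h1

theorem const [Finite G] [Fintype W] (hM : IsPModular p M) (hW : IsPGroup p W) (hπ : Mt W π)
    (hreg : ∀ g (x : W), ¬ p ∣ orderOf ((x : G)⁻¹ * π g x))
    (hv : ∀ χ ∈ principalBlock M G, Val W π χ) {χ : IrrCharacter G}
    (hχ : χ ∈ principalBlock M G) (h0 : ∑ w : W, (χ : G → ℂ) w ≠ 0) {u y : W} (hu : u ≠ 1)
    (hy : y ≠ 1) : (χ : G → ℂ) u = (χ : G → ℂ) y := by
  cases nonempty_fintype G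
  choose m hm using fun χ : IrrCharacter G => sum_nat (W := W) χ.2.isCharacter
  have h1 : ∑ χ ∈ bF (principalBlock M G),
      (m χ : ℝ) / dg χ * ‖(χ : G → ℂ) u - (χ : G → ℂ) y‖ ^ 2 = 0 := by
    apply Complex.ofReal_injective
    have h2 := congrArg₂ (· - ·) (congrArg₂ (· + ·) (rel hM hW hπ hreg hv y hu)
      (rel hM hW hπ hreg hv u hy)) (congrArg₂ (· + ·) (rel hM hW hπ hreg hv u hu)
      (rel hM hW hπ hreg hv y hy))
    simp only [← Finset.sum_add_distrib, ← Finset.sum_sub_distrib, add_zero, sub_zero] at h2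
    rw [Complex.ofReal_zero, ← h2, Complex.ofReal_sum]
    refine Finset.sum_congr rfl fun χ _ => ?_
    push_cast
    rw [← Complex.mul_conj', hm, coe_dg, map_sub]
    ring
  rw [Finset.sum_eq_zero_iff_of_nonneg fun _ _ => by positivity] at h1
  have h3 := h1 χ (mem_bF.2 hχ)
  have h4 : (m χ : ℝ) ≠ 0 := fun h => h0 (by rw [hm]; exact_mod_cast h)
  have h5 : (dg χ : ℝ) ≠ 0 := by exact_mod_cast (dg_pos χ).ne'
  simpa [h4, h5, sub_eq_zero] using h3

theorem sum_const [Fintype W] {χ : G → ℂ} {a : ℂ} (h : ∀ u : W, u ≠ 1 → χ u = a) :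
    ∑ w : W, χ w = χ 1 + ((Nat.card W : ℂ) - 1) * a := by
  classical
  rw [← Finset.add_sum_erase _ _ (Finset.mem_univ 1), Finset.sum_congr rfl
    fun (x : W) hx => h x (Finset.ne_of_mem_erase hx),
    Finset.sum_const, Finset.card_erase_of_mem (Finset.mem_univ _), Finset.card_univ,
    ← Nat.card_eq_fintype_card, nsmul_eq_mul, Nat.cast_sub Nat.card_pos, OneMemClass.coe_one,
    Nat.cast_one]

theorem exists_int [Finite G] {χ : G → ℂ} (hχ : IsCharacter G χ) {u : W} (hu : u ≠ 1)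
    (h : ∀ y : W, y ≠ 1 → χ y = χ u) : ∃ a : ℤ, χ u = a := by
  cases nonempty_fintype W
  obtain ⟨m, hm⟩ := sum_nat (W := W) hχ
  obtain ⟨n, hn⟩ := hχ.exists_degree
  have h1 : 1 < Nat.card W := Finite.one_lt_card_iff_nontrivial.2 ⟨u, 1, hu⟩
  have h2 : (Nat.card W : ℂ) - 1 ≠ 0 := sub_ne_zero.2 (by exact_mod_cast h1.ne')
  have h3 : χ u = ((((m : ℚ) - n) / (Nat.card W - 1) : ℚ) : ℂ) := by
    rw [sum_const h, hn] at hm
    push_cast
    field_simp
    linear_combination hm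
  have h4 := hχ.isIntegral (u : G)
  rw [h3] at h4
  obtain ⟨z, hz⟩ := H29.exists_int_of_isIntegral_rat h4
  exact ⟨z, by rw [h3, hz]; simp⟩

/-- The quadrilateral bound. -/
theorem bound [Finite G] (hπ : Mt W π) (hq : 3 ≤ Nat.card W) {χ : IrrCharacter G}
    (hv : Val W π χ) {a : ℤ} (h : ∀ y : W, y ≠ 1 → (χ : G → ℂ) y = a) (ha : a < dg χ) :
    ((Nat.card W : ℝ) - 1) * a ≤ dg χ := by
  classical
  cases nonempty_fintype G
  cases nonempty_fintype W
  obtain ⟨x, y, hx, hy, hxy⟩ : ∃ x y : W, x ≠ 1 ∧ y ≠ 1 ∧ x ≠ y := by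
    have h1 : 1 < (Finset.univ.erase (1 : W)).card := by
      rw [Finset.card_erase_of_mem (Finset.mem_univ _), Finset.card_univ,
        ← Nat.card_eq_fintype_card]; omega
    obtain ⟨x, hx, y, hy, hxy⟩ := Finset.one_lt_card.1 h1
    exact ⟨x, y, Finset.ne_of_mem_erase hx, Finset.ne_of_mem_erase hy, hxy⟩
  have h1 : ∀ x y : W, x ≠ y → (χ : G → ℂ) ((x : G)⁻¹ * y) = a := fun x y hxy =>
    h (x⁻¹ * y) fun h => hxy (inv_mul_eq_one.1 h)
  have h2 : ∀ x : W, x ≠ 1 → (∑ g, ((dg χ : ℝ) - ((χ : G → ℂ) ((x : G)⁻¹ * π g x)).re)) * dg χ =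
      Nat.card G * (dg χ + ((Nat.card W : ℝ) - 1) * a) * (dg χ - a) := fun x hx => by
    have h3 := avg hπ χ.2 hv x
    rw [sum_const h, ← InvMemClass.coe_inv, h x⁻¹ (inv_ne_one.2 hx), ← coe_dg] at h3
    have h4 := congrArg Complex.re h3
    rw [mul_comm, re_nat, Complex.re_sum] at h4
    simp only [Complex.sub_re, Complex.natCast_re, InvMemClass.coe_inv] at h4
    rw [mul_comm, h4]
    norm_cast
  have h5 : ∑ g, ((dg χ : ℝ) - ((χ : G → ℂ) ((x : G)⁻¹ * π g x)).re) +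
      ∑ g, ((dg χ : ℝ) - ((χ : G → ℂ) ((y : G)⁻¹ * π g y)).re) ≤
        Nat.card G * (4 * (dg χ - a)) := by
    rw [← Finset.sum_add_distrib, Nat.card_eq_fintype_card, ← nsmul_eq_mul]
    refine Finset.sum_le_card_nsmul _ _ _ fun g _ => ?_
    have h6 := quad χ.2 x y (π g x) (π g y)
    rw [← χ.2.isClassFunction.eq_of_isConj (hπ.cj g x y), hv g x y hxy, hv g y x hxy.symm,
      h1 x y hxy, h1 y x hxy.symm, ← coe_dg] at h6
    simp only [Complex.natCast_re, Complex.intCast_re] at h6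
    linarith
  have h7 : (0 : ℝ) < dg χ := by exact_mod_cast dg_pos χ
  have h8 : (0 : ℝ) < Nat.card G * ((dg χ : ℝ) - a) :=
    mul_pos (by exact_mod_cast Nat.card_pos) (by exact_mod_cast sub_pos.2 ha)
  have h9 := mul_le_mul_of_nonneg_right h5 h7.le
  rw [add_mul, h2 x hx, h2 y hy] at h9
  nlinarith

/-- The final count. -/
theorem count [Finite G] (hM : IsPModular p M) (hW : IsPGroup p W) (hπ : Mt W π)
    (hreg : ∀ g (x : W), ¬ p ∣ orderOf ((x : G)⁻¹ * π g x))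
    (hv : ∀ χ ∈ principalBlock M G, Val W π χ) (hq : 3 ≤ Nat.card W)
    (hf : ∀ χ ∈ principalBlock M G, χ ≠ one G → charKer (χ : G → ℂ) = ⊥)
    (hne : ∃ g x, π g x ≠ x) : False := by
  classical
  cases nonempty_fintype G
  cases nonempty_fintype W
  obtain ⟨u, hu⟩ : ∃ u : W, u ≠ 1 :=
    have : Nontrivial W := Finite.one_lt_card_iff_nontrivial.1 (by omega)
    exists_ne 1
  have hu1 : (u : G) ≠ 1 := fun h => hu (Subtype.ext h)
  have h0 : ∀ χ ∈ principalBlock M G, ∑ w : W, (χ : G → ℂ) w ≠ 0 := fun χ hχ h => by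
    by_cases h1 : χ = one G
    · simp [h1] at h
    · obtain ⟨g, x, hx⟩ := hne
      have := ker_of_sum_zero hπ χ.2 (hv χ hχ) h x g
      rw [hf χ hχ h1, Subgroup.mem_bot, inv_mul_eq_one] at this
      exact hx this.symm
  have h1 : ∀ χ : IrrCharacter G, ∃ a : ℤ, χ ∈ principalBlock M G →
      ∀ y : W, y ≠ 1 → (χ : G → ℂ) y = a := fun χ => by
    by_cases hχ : χ ∈ principalBlock M G
    · have h2 := fun (y : W) (hy : y ≠ 1) => const hM hW hπ hreg hv hχ (h0 χ hχ) hy hu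
      obtain ⟨a, ha⟩ := exists_int χ.2.isCharacter hu h2
      exact ⟨a, fun _ y hy => (h2 y hy).trans ha⟩
    · exact ⟨0, fun h => (hχ h).elim⟩
  choose a ha using h1
  have hd : ∀ χ : IrrCharacter G, (0 : ℝ) < dg χ := fun χ => by exact_mod_cast dg_pos χ
  have h2 : ∑ χ ∈ bF (principalBlock M G), (dg χ : ℤ) * a χ = 0 := by
    have := orth hM (ord_of_mem hW u) hu1 (y := 1) (by simp [hp.out.ne_one])
    rw [Finset.sum_congr rfl (g := fun χ => (((dg χ : ℤ) * a χ : ℤ) : ℂ)) fun χ hχ => by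
      rw [ha χ (mem_bF.1 hχ) u hu, map_intCast, ← coe_dg]; push_cast; ring] at this
    exact_mod_cast this
  obtain ⟨q, hq'⟩ : ∃ q : ℝ, q = (Nat.card W : ℝ) := ⟨_, rfl⟩
  have hq3 : (3 : ℝ) ≤ q := by rw [hq']; exact_mod_cast hq
  have h3 : ∑ χ ∈ bF (principalBlock M G),
      (a χ : ℝ) ^ 2 * ((q - 2) - (q - 1) * a χ / dg χ) = 0 := by
    have h4 := rel hM hW hπ hreg hv u hu
    rw [Finset.sum_congr rfl (g := fun χ => (((a χ : ℝ) ^ 2 * ((q - 2) - (q - 1) * a χ / dg χ) +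
      ((dg χ : ℤ) * a χ : ℤ) : ℝ) : ℂ)) fun χ hχ => by
        have h5 : (dg χ : ℂ) ≠ 0 := by exact_mod_cast (dg_pos χ).ne'
        rw [sum_const (ha χ (mem_bF.1 hχ)), ha χ (mem_bF.1 hχ) u hu, map_intCast, ← coe_dg, hq']
        push_cast
        field_simp
        ring, ← Complex.ofReal_sum, Complex.ofReal_eq_zero, Finset.sum_add_distrib,
      ← Int.cast_sum, h2] at h4
    simpa using h4
  have h5 : one G ∈ bF (principalBlock M G) := mem_bF.2 H37.one_mem_principalBlock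
  have h6 : a (one G) = 1 := by
    have h6 : (1 : ℂ) = a (one G) := ha (one G) (mem_bF.1 h5) u hu
    exact_mod_cast h6.symm
  rw [← Finset.add_sum_erase _ _ h5, h6, dg_one] at h2 h3
  obtain ⟨ψ, hψ, h7⟩ := Finset.exists_lt_of_sum_lt (s := (bF (principalBlock M G)).erase (one G))
    (f := fun χ => (dg χ : ℤ) * a χ) (g := fun _ => 0) (by rw [Finset.sum_const_zero]; omega)
  have h8 : ∀ χ ∈ (bF (principalBlock M G)).erase (one G),
      0 ≤ (a χ : ℝ) ^ 2 * ((q - 2) - (q - 1) * a χ / dg χ) := fun χ hχ => by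
    have hχ' := mem_bF.1 (Finset.mem_of_mem_erase hχ)
    have h9 := re_le χ.2.isCharacter (u : G)
    rw [ha χ hχ' u hu, ← coe_dg, Complex.intCast_re, Complex.natCast_re] at h9
    have h10 : a χ ≠ dg χ := fun h => hu1 ((hf χ hχ' (Finset.ne_of_mem_erase hχ)).le
      (χ.2.mem_charKer.2 (by rw [ha χ hχ' u hu, h, ← coe_dg]; simp)))
    have h11 := bound hπ hq (hv χ hχ') (ha χ hχ')
      (lt_of_le_of_ne (by exact_mod_cast h9) h10)
    exact mul_nonneg (sq_nonneg _) (by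
      have := (div_le_one (hd χ)).2 h11
      rw [← hq'] at this
      linarith)
  have h9 := Finset.single_le_sum h8 hψ
  have h10 : (a ψ : ℝ) ≤ -1 := by
    have := neg_of_mul_neg_right h7 (Int.natCast_nonneg _)
    exact_mod_cast (show a ψ ≤ -1 by omega)
  have h11 : (q - 1) * a ψ / dg ψ < 0 := div_neg_of_neg_of_pos (by nlinarith) (hd ψ)
  push_cast at h3
  have h12 : (1 : ℝ) ≤ (a ψ : ℝ) ^ 2 := by nlinarith
  have h13 := le_mul_of_one_le_left (show 0 ≤ (q - 2) - (q - 1) * a ψ / dg ψ by linarith) h12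
  linarith

end H79.PS
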