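import Cfsg.Agent.H79.PSA
import Cfsg.Agent.H79.PSB
import Cfsg.Agent.H34.BS

/-! If any two Sylow `p`-subgroups generate a `p`-solvable group, the group is `p`-solvable. -/

set_option autoImplicit false
set_option linter.unusedSectionVars false

namespace H79.PS

open Cfsg H28
open scoped Pointwise

universe u

variable {G : Type*} [Group G] [Finite G] {p : ℕ} [hp : Fact p.Prime]

/-- Any two Sylow `p`-subgroups generate a `p`-solvable subgroup. -/
def Pair (p : ℕ) (G : Type*) [Group G] : Prop :=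
  ∀ P Q : Sylow p G, IsPSolvable p ↥((P : Subgroup G) ⊔ Q)

/-- The `p`-central elements of order dividing `p`. -/
def DD (p : ℕ) (G : Type*) [Group G] : Set G :=
  {d | d ^ p = 1 ∧ ∃ S : Sylow p G, d ∈ (S : Subgroup G) ∧ ∀ s ∈ (S : Subgroup G), Commute s d}

theorem mem_smul {S : Sylow p G} {g x : G} :
    x ∈ ((g • S : Sylow p G) : Subgroup G) ↔ g⁻¹ * x * g ∈ (S : Subgroup G) := by
  rw [Sylow.coe_subgroup_smul, Subgroup.mem_pointwise_smul_iff_inv_smul_mem]
  simp

theorem DD_conj {d : G} (hd : d ∈ DD p G) (g : G) : g * d * g⁻¹ ∈ DD p G := by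
  obtain ⟨h1, S, h2, h3⟩ := hd
  refine ⟨by rw [conj_pow, h1]; simp, g • S, mem_smul.2 (by simpa [mul_assoc] using h2),
    fun s hs => ?_⟩
  simpa [mul_assoc] using (h3 _ (mem_smul.1 hs)).map (MulAut.conj g)

theorem DD_isConj {d x : G} (hd : d ∈ DD p G) (h : IsConj d x) : x ∈ DD p G := by
  obtain ⟨g, rfl⟩ := isConj_iff.1 h
  exact DD_conj hd g

theorem exists_sylow_cent {d : G} (hd : d ∈ DD p G) {Q : Subgroup G} (hQ : IsPGroup p Q)
    (hc : ∀ r ∈ Q, Commute r d) : ∃ S : Sylow p G, Q ≤ S ∧ d ∈ (S : Subgroup G) ∧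
      ∀ s ∈ (S : Subgroup G), Commute s d := by
  obtain ⟨-, S, h2, h3⟩ := hd
  have h4 : (S : Subgroup G) ≤ Subgroup.centralizer {d} := fun s hs =>
    Subgroup.mem_centralizer_singleton_iff.2 (h3 s hs)
  obtain ⟨T, hT⟩ := (hQ.comap_subtype (K := Subgroup.centralizer {d})).exists_le_sylow
  obtain ⟨c, rfl⟩ := MulAction.exists_smul_eq (Subgroup.centralizer {d}) (S.subtype h4) T
  have hcd : Commute (c : G) d := Subgroup.mem_centralizer_singleton_iff.1 c.2
  refine ⟨(c : G) • S, fun r hr => mem_smul.2 ?_, mem_smul.2 ?_, fun s hs => ?_⟩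
  · exact mem_smul (G := Subgroup.centralizer {d}).1 (hT (show
      (⟨r, Subgroup.mem_centralizer_singleton_iff.2 (hc r hr)⟩ :
        Subgroup.centralizer {d}) ∈ Q.comap _ from hr))
  · rwa [mul_assoc, ← hcd.eq, inv_mul_cancel_left]
  · have := (hcd.mul_left (h3 _ (mem_smul.1 hs))).mul_left hcd.inv_left
    simpa [mul_assoc] using this

theorem comm_oc (h : Pair p G) {d d' : G} {S S' : Sylow p G} (h1 : d ∈ (S : Subgroup G))
    (h2 : ∀ s ∈ (S : Subgroup G), Commute s d) (h3 : d' ∈ (S' : Subgroup G))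
    (h4 : ∀ s ∈ (S' : Subgroup G), Commute s d') :
    d * d' * d⁻¹ * d'⁻¹ ∈ oc p ((S : Subgroup G) ⊔ S') :=
  mem_oc.2 (comm_mod' (h S S') (d := ⟨d, Subgroup.mem_sup_left h1⟩)
    (d' := ⟨d', Subgroup.mem_sup_right h3⟩) (S.subtype le_sup_left) (S'.subtype le_sup_right)
    (fun s hs => Subtype.ext (h2 s hs)) fun s hs => Subtype.ext (h4 s hs))

theorem comm_of_pgroup (h : Pair p G) {Q : Subgroup G} (hQ : IsPGroup p Q) {d d' : G}
    (hd : d ∈ DD p G) (hd' : d' ∈ DD p G) (h1 : d ∈ Q) (h2 : d' ∈ Q) : Commute d d' := by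
  obtain ⟨-, S, h3, h4⟩ := hd
  obtain ⟨-, S', h5, h6⟩ := hd'
  have := eq_one_of_mem hQ (mul_mem (mul_mem (mul_mem h1 h2) (inv_mem h1)) (inv_mem h2))
    (reg_of_mem (oc_card _) (comm_oc h h3 h4 h5 h6))
  rw [mul_inv_eq_one, mul_inv_eq_iff_eq_mul] at this
  exact this

theorem comm_mod_sub (h : Pair p G) {M : Subgroup G} (hM : IsPSolvable p M) {d d' : M}
    (hd : (d : G) ∈ DD p G) (hd' : (d' : G) ∈ DD p G) :
    d * d' * d⁻¹ * d'⁻¹ ∈ pPrimeCore p M := by
  refine comm_mod hM (Subtype.ext hd.1) (fun S hS hdS r hr => Subtype.ext ?_) fun Q hQ hc => ?_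
  · exact comm_of_pgroup h (hS.map M.subtype) hd (DD_conj hd r) ⟨d, hdS, rfl⟩
      ⟨_, mul_mem (mul_mem hr hdS) (inv_mem hr), rfl⟩
  · obtain ⟨S, h1, h2, h3⟩ := exists_sylow_cent hd (hQ.map M.subtype) (by
      rintro _ ⟨r, hr, rfl⟩
      exact congrArg Subtype.val (hc r hr))
    obtain ⟨-, S', h5, h6⟩ := hd'
    exact ⟨(oc p ((S : Subgroup G) ⊔ S')).subgroupOf M, fun h7 => oc_card _
      (h7.trans (H2.card_subgroupOf_dvd _ _)), comm_oc h h2 h3 h5 h6, fun r hr e he =>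
        oc_conj (Subgroup.mem_sup_left (h1 ⟨r, hr, rfl⟩)) he⟩

theorem exists_rep (h : Pair p G) {M : Subgroup G} (hM : IsPSolvable p M) {Q : Sylow p G}
    (hQ : (Q : Subgroup G) ≤ M) {d : G} (hd : d ∈ DD p G) (hdM : d ∈ M) :
    ∃ x ∈ DD p G ∩ Q, x⁻¹ * d ∈ oc p M := by
  set π := QuotientGroup.mk' (pPrimeCore p M) with hπ
  have h1 : ∀ a ∈ Group.conjugatesOfSet {π ⟨d, hdM⟩}, ∃ b : M, (b : G) ∈ DD p G ∧ π b = a := by
    intro a ha
    obtain ⟨_, rfl, h2⟩ := Group.mem_conjugatesOfSet_iff.1 ha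
    obtain ⟨c, rfl⟩ := isConj_iff.1 h2
    obtain ⟨m, rfl⟩ := QuotientGroup.mk'_surjective _ c
    exact ⟨m * ⟨d, hdM⟩ * m⁻¹, DD_conj hd m, by simp [hπ]⟩
  have h2 : IsPGroup p (Subgroup.normalClosure {π ⟨d, hdM⟩}) := fun x => ⟨1, Subtype.ext (by
    rw [pow_one]
    refine pow_closure (fun a ha b hb => ?_) (fun a ha => ?_) x.2
    · obtain ⟨a', ha', rfl⟩ := h1 a ha
      obtain ⟨b', hb', rfl⟩ := h1 b hb
      have h3 : π (a' * b' * a'⁻¹ * b'⁻¹) = 1 :=
        (QuotientGroup.eq_one_iff _).2 (comm_mod_sub h hM ha' hb')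
      rw [map_mul, map_mul, map_mul, map_inv, map_inv, mul_inv_eq_one,
        mul_inv_eq_iff_eq_mul] at h3
      exact h3
    · obtain ⟨a', ha', rfl⟩ := h1 a ha
      rw [← map_pow, show a' ^ p = 1 from Subtype.ext ha'.1, map_one])⟩
  obtain ⟨x, hx, h3⟩ := h2.le_sylow_of_normal ((Q.subtype hQ).mapSurjective
    (QuotientGroup.mk'_surjective (pPrimeCore p M))) (Subgroup.subset_normalClosure rfl)
  have h4 : (x : G)⁻¹ * d ∈ oc p M := mem_oc.2 (QuotientGroup.eq.1 h3)
  obtain ⟨k, hk⟩ := pow_of_mem Q.2 hx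
  exact ⟨x, ⟨DD_isConj hd (conj_of_cong (oc_card M) hk (j := 1) (by rw [pow_one, hd.1])
    (mem_norm_oc x.2) h4).symm, hx⟩, h4⟩

/-- The subgroup generated by the `p`-central elements of order `p` in `P`. -/
def WW (P : Sylow p G) : Subgroup G := Subgroup.closure (DD p G ∩ P)

theorem WW_le (P : Sylow p G) : WW P ≤ P := (Subgroup.closure_le _).2 fun _ h => h.2

theorem WW_comm (h : Pair p G) {P : Sylow p G} {x y : G} (hx : x ∈ WW P) (hy : y ∈ WW P) :
    Commute x y :=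
  comm_closure (fun _ ha _ hb => comm_of_pgroup h P.2 ha.1 hb.1 ha.2 hb.2) hx hy

theorem WW_conj {P : Sylow p G} {g y : G} (hy : y ∈ WW (g • P)) : g⁻¹ * y * g ∈ WW P := by
  have : WW (g • P) ≤ (WW P).comap (MulAut.conj g⁻¹).toMonoidHom :=
    (Subgroup.closure_le _).2 fun a ha => Subgroup.subset_closure
      ⟨DD_conj ha.1 g⁻¹, by
        have := mem_smul.1 ha.2
        simpa using (show g⁻¹ * a * g ∈ P from this)⟩
  simpa using this hy

theorem rep (h : Pair p G) {M : Subgroup G} (hM : IsPSolvable p M) {P Q : Sylow p G}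
    (hP : WW P ≤ M) (hQ : (Q : Subgroup G) ≤ M) {w : G} (hw : w ∈ WW P) :
    ∃ y ∈ WW Q, w⁻¹ * y ∈ oc p M := by
  induction hw using Subgroup.closure_induction with
  | mem a ha =>
    obtain ⟨x, hx, h1⟩ := exists_rep h hM hQ ha.1 (hP (Subgroup.subset_closure ha))
    exact ⟨x, Subgroup.subset_closure hx, by simpa using inv_mem h1⟩
  | one => exact ⟨1, one_mem _, by simp⟩
  | mul a b _ hb iha ihb =>
    obtain ⟨x, hx, h1⟩ := iha
    obtain ⟨y, hy, h2⟩ := ihb
    exact ⟨x * y, mul_mem hx hy, by simpa [mul_assoc] using mul_mem (oc_conj' (hP hb) h1) h2⟩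
  | inv a ha ih =>
    obtain ⟨x, hx, h1⟩ := ih
    exact ⟨x⁻¹, inv_mem hx, by simpa [mul_assoc] using oc_conj (hP ha) (inv_mem h1)⟩

theorem not_central [IsSimpleGroup G] (hn : ¬ IsPSolvable p G) {u : G}
    (h1 : u ≠ 1) : Subgroup.centralizer {u} ≠ ⊤ := fun h => by
  have h2 : u ∈ Subgroup.center G := Subgroup.mem_center_iff.2 fun g =>
    Subgroup.mem_centralizer_singleton_iff.1 (h ▸ Subgroup.mem_top g)
  rcases (inferInstance : (Subgroup.center G).Normal).eq_bot_or_eq_top with h3 | h3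
  · exact h1 (by rwa [h3] at h2)
  · have : Group.IsSolvable G := Group.isSolvable_of_comm fun a b =>
      Subgroup.mem_center_iff.1 (h3 ▸ Subgroup.mem_top b) a
    exact hn (H18.isPSolvable_of_isSolvable p)

theorem simple_case [IsSimpleGroup G] (h : Pair p G)
    (hs : ∀ H : Subgroup G, H ≠ ⊤ → IsPSolvable p H) : IsPSolvable p G := by
  by_contra hn
  obtain ⟨P⟩ : Nonempty (Sylow p G) := inferInstance
  have hW : IsPGroup p (WW P) := P.2.to_le (WW_le P)
  obtain ⟨z, hzD, hzP, hz1⟩ : ∃ z ∈ DD p G, z ∈ (P : Subgroup G) ∧ z ≠ 1 := by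
    have h1 : p ∣ Nat.card G := by_contra fun h1 =>
      hn (H18.isPSolvable_of_coprime (hp.out.coprime_iff_not_dvd.2 h1).symm)
    have : Nontrivial (P : Subgroup G) :=
      (Subgroup.nontrivial_iff_ne_bot _).2 (P.ne_bot_of_dvd_card h1)
    have := P.2.center_nontrivial
    obtain ⟨k, hk0, hk⟩ := (P.2.to_subgroup (Subgroup.center P)).nontrivial_iff_card.1 this
    obtain ⟨y, hy⟩ := exists_prime_orderOf_dvd_card' (G := Subgroup.center P) p
      (hk ▸ dvd_pow_self p hk0.ne')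
    have h2 : orderOf ((y : P) : G) = p := by rw [Subgroup.orderOf_coe, Subgroup.orderOf_coe, hy]
    exact ⟨y, ⟨orderOf_dvd_iff_pow_eq_one.1 h2.dvd, P, y.1.2, fun s hs =>
      congrArg Subtype.val (Subgroup.mem_center_iff.1 y.2 ⟨s, hs⟩)⟩, y.1.2,
      fun h3 => hp.out.ne_one (by rw [← h2, h3, orderOf_one])⟩
  have hzW : z ∈ WW P := Subgroup.subset_closure ⟨hzD, hzP⟩
  have hq : 1 < Nat.card (WW P) := Finite.one_lt_card_iff_nontrivial.2
    ⟨⟨z, hzW⟩, 1, fun h1 => hz1 (congrArg Subtype.val h1)⟩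
  rcases (show Nat.card (WW P) = 2 ∨ 3 ≤ Nat.card (WW P) by omega) with hq2 | hq3
  · have hp2 : p = 2 := by
      obtain ⟨k, hk⟩ := hW.exists_card_eq
      rw [hq2] at hk
      rcases k with _ | k
      · simp at hk
      · exact (Nat.prime_dvd_prime_iff_eq hp.out Nat.prime_two).1
          (hk ▸ dvd_pow_self p k.succ_ne_zero)
    subst hp2
    have h1 : IsIsolatedInvolution z := by
      refine ⟨orderOf_eq_prime hzD.1 hz1, fun g hg => ?_⟩
      have hD := DD_conj hzD g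
      obtain ⟨S, h2, h3, -⟩ := exists_sylow_cent hzD (Q := Subgroup.zpowers (g * z * g⁻¹))
        (IsPGroup.of_card (n := 1) (by
          rw [Nat.card_zpowers, pow_one]
          exact orderOf_eq_prime hD.1 (by simpa using hz1))) (by
          rintro _ ⟨k, rfl⟩
          exact hg.symm.zpow_left k)
      obtain ⟨t, rfl⟩ := MulAction.exists_smul_eq G P S
      obtain ⟨y, -, hy⟩ := (Nat.card_eq_two_iff' (1 : WW P)).1 hq2
      have h4 := (hy ⟨_, WW_conj (Subgroup.subset_closure ⟨hD, h2 (Subgroup.mem_zpowers _)⟩)⟩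
        fun h5 => hz1 (by simpa [mul_assoc, mul_eq_one_iff_eq_inv] using congrArg Subtype.val h5)).trans
        (hy ⟨_, WW_conj (Subgroup.subset_closure ⟨hzD, h3⟩)⟩
        fun h5 => hz1 (by simpa [mul_assoc, mul_eq_one_iff_eq_inv] using congrArg Subtype.val h5)).symm
      simpa using congrArg Subtype.val h4
    have h2 := H34.zstar h1
    rcases (inferInstance : (pPrimeCore 2 G).Normal).eq_bot_or_eq_top with h3 | h3
    · refine not_central hn hz1 (eq_top_iff.2 fun g _ =>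
        Subgroup.mem_centralizer_singleton_iff.2 ?_)
      have h4 : z * g * z⁻¹ * g⁻¹ ∈ pPrimeCore 2 G := h2 g
      rw [h3, Subgroup.mem_bot, mul_inv_eq_one, mul_inv_eq_iff_eq_mul] at h4
      exact h4.symm
    · exact hn (H18.isPSolvable_of_coprime (H2.pPrimeCore_eq_top_iff.1 h3))
  choose π hπ hπ' using fun (g : G) (w : WW P) => rep h (h P (g • P))
    ((WW_le P).trans le_sup_left) le_sup_right w.2
  have hreg : ∀ g (x : WW P), ¬ p ∣ orderOf ((x : G)⁻¹ * π g x) := fun g x =>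
    reg_of_mem (oc_card _) (hπ' g x)
  obtain ⟨M, hM⟩ := H35.exists_isPModular p hp.out
  have := hM.2.1
  refine count hM hW (π := π) ⟨fun g => ?_, fun g x w => ?_⟩ hreg (fun χ hχ g x w hxw => ?_) hq3
    (fun χ _ h1 => χ.2.charKer_eq_bot_of_simple fun h2 => h1 (Subtype.ext h2)) ?_
  · refine ⟨Equiv.ofBijective (fun w => ⟨_, WW_conj (hπ g w)⟩)
      (Finite.injective_iff_bijective.1 fun a b hab => ?_), fun w => by simp [mul_assoc]⟩
    have h1 : π g a = π g b := by simpa using congrArg Subtype.val hab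
    exact Subtype.ext (uniq P.2 le_sup_left (WW_le P a.2) (WW_le P b.2) (hπ' g a)
      (h1 ▸ hreg g b))
  · have hx : (x : G) ∈ (P : Subgroup G) ⊔ (g • P : Sylow p G) :=
      Subgroup.mem_sup_left (WW_le P x.2)
    have hw : (w : G) ∈ (P : Subgroup G) ⊔ (g • P : Sylow p G) :=
      Subgroup.mem_sup_left (WW_le P w.2)
    obtain ⟨k, hk⟩ := pow_of_mem hW (mul_mem (inv_mem x.2) w.2)
    obtain ⟨j, hj⟩ := pow_of_mem (g • P).2
      (mul_mem (inv_mem (WW_le _ (hπ g x))) (WW_le _ (hπ g w)))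
    refine conj_of_cong (oc_card _) hk hj (mem_norm_oc (mul_mem (inv_mem hx) hw)) ?_
    simpa [mul_assoc] using mul_mem (oc_conj' hw (oc_conj hx (inv_mem (hπ' g x)))) (hπ' g w)
  · have hu : (x : G)⁻¹ * w ∈ WW P := mul_mem (inv_mem x.2) w.2
    have hu1 : (x : G)⁻¹ * w ≠ 1 := fun h1 => hxw (Subtype.ext (inv_mul_eq_one.1 h1))
    obtain ⟨k, hk⟩ := pow_of_mem hW hu
    set u := (x : G)⁻¹ * w with hud
    set C := Subgroup.centralizer {u} with hC
    have hWC : WW P ≤ C := fun y hy => Subgroup.mem_centralizer_singleton_iff.2 (WW_comm h hy hu)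
    obtain ⟨S, hS⟩ := (hW.comap_subtype (K := C)).exists_le_sylow
    obtain ⟨P', hP'⟩ := (S.2.map C.subtype).exists_le_sylow
    have hWP : WW P ≤ P' := fun y hy => hP' ⟨⟨y, hWC hy⟩, hS hy, rfl⟩
    obtain ⟨y, hy, h1⟩ := rep h (h P' (g • P)) (hWP.trans le_sup_left) le_sup_right w.2
    have h2 : y = π g w := uniq (g • P).2 le_sup_right (WW_le _ hy) (WW_le _ (hπ g w))
      (y := w) (by simpa using inv_mem h1) (by rw [← orderOf_inv]; simpa using hreg g w)
    obtain ⟨c, hc, h3, h4⟩ := coset_conj (oc_card _) hk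
      (mem_norm_oc (Subgroup.mem_sup_left (hWP hu))) h1
    have h5 : u * ((w : G)⁻¹ * y) = (x : G)⁻¹ * π g w := by simp [hud, h2, mul_assoc]
    have hcC : c ∈ C := Subgroup.mem_centralizer_singleton_iff.2 h3.symm
    have h6 : (⟨c, hcC⟩ : C) ∈ pPrimeCore p C := le_core_of_norm (hs C (not_central hn hu1)) S
      (E := (oc p ((P' : Subgroup G) ⊔ (g • P : Sylow p G))).subgroupOf C)
      (fun h7 => oc_card _ (h7.trans (H2.card_subgroupOf_dvd _ _)))
      (fun s hs e he => oc_conj (Subgroup.mem_sup_left (hP' ⟨s, hs, rfl⟩)) he) hc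
    rw [← h5, ← χ.2.isClassFunction.eq_of_isConj h4]
    exact H34.prin_mul_core' hM (H41.isSec_centralizer (ord_of_mem hW ⟨u, hu⟩)) hχ h6
  · by_contra h1
    push Not at h1
    have h2 : (WW P).Normal := ⟨fun y hy g => by
      simpa [h1] using WW_conj (hπ g⁻¹ ⟨y, hy⟩)⟩
    rcases h2.eq_bot_or_eq_top with h3 | h3
    · exact hz1 (by rwa [h3] at hzW)
    · rw [h3] at hW
      exact hn (H18.isPSolvable_of_isPGroup (hW.of_equiv Subgroup.topEquiv))

theorem Pair.subgroup (h : Pair p G) (H : Subgroup G) : Pair p H := fun S T => by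
  obtain ⟨P, hP⟩ := (S.2.map H.subtype).exists_le_sylow
  obtain ⟨Q, hQ⟩ := (T.2.map H.subtype).exists_le_sylow
  have h1 : ((S : Subgroup H) ⊔ T).map H.subtype ≤ (P : Subgroup G) ⊔ Q := by
    rw [Subgroup.map_sup]; exact sup_le_sup hP hQ
  exact H18.isPSolvable_of_injective (H18.isPSolvable_of_le (h P Q) h1)
    (Subgroup.equivMapOfInjective _ _ H.subtype_injective).toMonoidHom (MulEquiv.injective _)

theorem Pair.quotient (h : Pair p G) (N : Subgroup G) [N.Normal] : Pair p (G ⧸ N) := fun S T => by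
  obtain ⟨P, rfl⟩ := Sylow.mapSurjective_surjective (QuotientGroup.mk'_surjective N) p S
  obtain ⟨Q, rfl⟩ := Sylow.mapSurjective_surjective (QuotientGroup.mk'_surjective N) p T
  have := H18.isPSolvable_map (h P Q) (QuotientGroup.mk' N)
  rwa [Subgroup.map_sup] at this

theorem of_pair_aux (n : ℕ) : ∀ (G : Type u) [Group G] [Finite G], Nat.card G = n → Pair p G →
    IsPSolvable p G := by
  induction n using Nat.strong_induction_on with
  | _ n ih =>
  intro G _ _ hn h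
  subst hn
  have hs : ∀ H : Subgroup G, H ≠ ⊤ → IsPSolvable p H := fun H hH =>
    ih _ (Finite.card_subtype_lt (p := (· ∈ H)) (Classical.choose_spec
      (not_forall.1 fun h1 => hH ((Subgroup.eq_top_iff' H).2 h1)))) H rfl (h.subgroup H)
  by_cases h1 : ∃ N : Subgroup G, N.Normal ∧ N ≠ ⊥ ∧ N ≠ ⊤
  · obtain ⟨N, _, h2, h3⟩ := h1
    refine H18.isPSolvable_of_normal_of_quotient N (hs N h3) (ih _ ?_ _ rfl (h.quotient N))
    rw [N.card_eq_card_quotient_mul_card_subgroup]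
    exact lt_mul_of_one_lt_right Nat.card_pos ((Subgroup.one_lt_card_iff_ne_bot N).2 h2)
  rcases subsingleton_or_nontrivial G with h2 | h2
  · exact H18.isPSolvable_of_coprime (by simp)
  · have : IsSimpleGroup G := ⟨fun N hN => by
      by_contra h3
      exact h1 ⟨N, hN, fun h4 => h3 (Or.inl h4), fun h4 => h3 (Or.inr h4)⟩⟩
    exact simple_case h hs

theorem of_pair (h : Pair p G) : IsPSolvable p G := of_pair_aux _ G rfl h

theorem pair_of (P : Sylow p G) (h : ∀ g : G, IsPSolvable p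
    ↥((P : Subgroup G) ⊔ (P : Subgroup G).map (MulAut.conj g).toMonoidHom)) : Pair p G := by
  intro S T
  obtain ⟨a, rfl⟩ := MulAction.exists_smul_eq G P S
  obtain ⟨b, rfl⟩ := MulAction.exists_smul_eq G P T
  refine H18.isPSolvable_of_le (H18.isPSolvable_map (h (a⁻¹ * b)) (MulAut.conj a).toMonoidHom) ?_
  refine sup_le (fun x hx => ⟨_, Subgroup.mem_sup_left (mem_smul.1 hx), by simp [mul_assoc]⟩)
    fun x hx => ⟨_, Subgroup.mem_sup_right ⟨_, mem_smul.1 hx, rfl⟩, by simp [mul_assoc]⟩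

end H79.PS
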