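import Cfsg.Agent.H23.R3QM

/-! Tower R3F (S2207): fixed points of the involutions. -/

set_option autoImplicit false
set_option linter.unusedSectionVars false

namespace H79.R3Fix

open MulAction H51.R3F

universe u v

variable {G : Type u} {X : Type v} [Group G] [Finite G] [Finite X] [MulAction G X]
  {Γ : SimpleGraph X} {N : X → Subgroup G} {k lam mu h m u t : ℕ}
  (S : St Γ N k lam mu h m 1 k u t)
include S

theorem adj_iff (g : G) (x y : X) : Γ.Adj (g • x) (g • y) ↔ Γ.Adj x y :=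
  ⟨fun H => by simpa using S.inv g⁻¹ _ _ H, S.inv g x y⟩

theorem nfix {a : X} {x : G} (hx : x ∈ N a) : x • a = a := ((S.memN a x).1 hx).1

theorem semi {a y : X} {x : G} (hx : x ∈ N a) (hy : y ≠ a) (e : x • y = y) : x = 1 := by
  by_cases H : Γ.Adj a y
  · exact ((S.memN a x).1 hx).2.resolve_right fun k => k y H e
  · have := Subgroup.eq_bot_of_card_eq _ (S.cardE a y ⟨hy.symm, H⟩)
    exact Subgroup.mem_bot.1 (this ▸ (⟨hx, e⟩ : x ∈ N a ⊓ stabilizer G y))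

theorem nadj_smul {a y : X} {g : G} (hg : g • a = a) (H : Nadj Γ a y) : Nadj Γ a (g • y) :=
  ⟨fun e => H.1 (by rw [← hg] at e; exact smul_left_cancel g e), fun e => H.2 (by
    rwa [← adj_iff S g, hg])⟩

theorem sq_one (hk : Odd k) {a : X} {x : G} (hx : x ∈ N a) (e : x * x = 1) : x = 1 := by
  obtain ⟨j, hj⟩ := hk
  have := congrArg Subtype.val (pow_card_eq_one' (x := (⟨x, hx⟩ : N a)))
  rw [S.cardN, hj, Subgroup.coe_pow, pow_succ, pow_mul, sq] at this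
  simpa [e] using this

theorem sq_surj (hk : Odd k) {a : X} {x : G} (hx : x ∈ N a) : ∃ y ∈ N a, (y * y)⁻¹ = x := by
  obtain ⟨j, hj⟩ := hk
  have := congrArg Subtype.val (pow_card_eq_one' (x := (⟨x, hx⟩ : N a)))
  rw [S.cardN, hj, Subgroup.coe_pow] at this
  refine ⟨x ^ j, pow_mem hx j, inv_eq_of_mul_eq_one_right ?_⟩
  rw [← pow_add, ← two_mul, ← pow_succ]; exact this

theorem ex_inv (hm : Even m) {a c : X} (H : Nadj Γ a c) :
    ∃ z : G, orderOf z = 2 ∧ z • a = a ∧ z • c = c := by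
  have := Fact.mk Nat.prime_two
  obtain ⟨z, hz⟩ := exists_prime_orderOf_dvd_card' (G := ↥(stabilizer G a ⊓ stabilizer G c)) 2
    (by rw [S.cardD a c H]; exact hm.two_dvd)
  exact ⟨z, by rw [Subgroup.orderOf_coe, hz], z.2.1, z.2.2⟩

variable (Z : Zf Γ N) (hk : Odd k)
include Z hk

theorem z_smul {a y : X} {z x : G} (hz : orderOf z = 2) (ha : z • a = a) (hx : x ∈ N a)
    (hy : z • y = y) : z • x • y = x⁻¹ • y := by
  rw [← Z.inv a z hz ha x hx, mul_smul, mul_smul, inv_smul_eq_iff.2 hy.symm]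

/-- at most one fixed point in each orbit -/
theorem un_fix {a y : X} {z x : G} (hz : orderOf z = 2) (ha : z • a = a) (hx : x ∈ N a)
    (hy : z • y = y) (hya : y ≠ a) (e : z • x • y = x • y) : x = 1 := by
  rw [z_smul S Z hk hz ha hx hy, inv_smul_eq_iff, smul_smul] at e
  exact sq_one S hk hx (semi S (mul_mem hx hx) hya e.symm)

theorem fib {a y : X} {z : G} (hz : orderOf z = 2) (ha : z • a = a) (hy : z • y = y)
    (hya : y ≠ a) : {w | Γ.Adj w (z • w) ∧ ∃ g ∈ N a, g • y = w}.ncard =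
      {w | Γ.Adj y w ∧ ∃ g ∈ N a, g • y = w}.ncard := by
  have inj : ∀ x ∈ N a, ∀ x' ∈ N a, x • y = x' • y → x = x' := fun x hx x' hx' e =>
    (inv_mul_eq_one.1 (semi S (mul_mem (inv_mem hx') hx) hya (by
      rw [mul_smul, e, inv_smul_smul]))).symm
  have key : ∀ x ∈ N a, Γ.Adj (x • y) (z • x • y) ↔ Γ.Adj y ((x * x)⁻¹ • y) := fun x hx => by
    rw [z_smul S Z hk hz ha hx hy, ← adj_iff S x⁻¹, inv_smul_smul, smul_smul, mul_inv_rev]
  have e1 : {w | Γ.Adj w (z • w) ∧ ∃ g ∈ N a, g • y = w} =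
      (fun x : G => x • y) '' {x | x ∈ N a ∧ Γ.Adj y ((x * x)⁻¹ • y)} := by
    ext w
    exact ⟨fun ⟨h1, g, hg, e⟩ => ⟨g, ⟨hg, (key g hg).1 (e ▸ h1)⟩, e⟩,
      fun ⟨g, hg, e⟩ => ⟨e ▸ (key g hg.1).2 hg.2, g, hg.1, e⟩⟩
  have e2 : {w | Γ.Adj y w ∧ ∃ g ∈ N a, g • y = w} =
      (fun x : G => (x * x)⁻¹ • y) '' {x | x ∈ N a ∧ Γ.Adj y ((x * x)⁻¹ • y)} := by
    ext w
    refine ⟨fun ⟨h1, g, hg, e⟩ => ?_, fun ⟨g, hg, e⟩ =>
      ⟨e ▸ hg.2, _, inv_mem (mul_mem hg.1 hg.1), e⟩⟩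
    obtain ⟨x, hx, rfl⟩ := sq_surj S hk hg
    exact ⟨x, ⟨hx, e ▸ h1⟩, e⟩
  rw [e1, e2, Set.InjOn.ncard_image fun x hx x' hx' e => inj x hx.1 x' hx'.1 e,
    Set.InjOn.ncard_image fun x hx x' hx' e => ?_]
  have := inv_injective (inj _ (inv_mem (mul_mem hx.1 hx.1)) _ (inv_mem (mul_mem hx'.1 hx'.1)) e)
  refine mul_inv_eq_one.1 (sq_one S hk (mul_mem hx.1 (inv_mem hx'.1)) ?_)
  rw [mul_assoc, ← mul_assoc x'⁻¹, ← Z.comm a x hx.1 _ (inv_mem hx'.1), mul_assoc, ← mul_assoc,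
    this]
  group

omit S hk in
theorem even_fix {z : G} (hz : orderOf z = 2) :
    Even {y : X | z • y = y}.ncard := by
  classical
  have := Fintype.ofFinite X
  have ex : ∀ y : X, z • y = y → ∃ b, Γ.Adj y b ∧ z • b = b := fun y hy =>
    (Z.nbr y z hz hy).exists
  choose! f h1 h2 using ex
  rw [Set.ncard_eq_toFinset_card', ← ZMod.natCast_eq_zero_iff_even, Finset.card_eq_sum_ones,
    Nat.cast_sum]
  refine Finset.sum_involution (fun y _ => f y) (fun _ _ => rfl) (fun y hy _ => ?_)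
    (fun y hy => ?_) fun y hy => ?_
  all_goals rw [Set.mem_toFinset] at hy
  · exact (h1 y hy).ne'
  · exact Set.mem_toFinset.2 (h2 y hy)
  · exact (Z.nbr (f y) z hz (h2 y hy)).unique ⟨h1 _ (h2 y hy), h2 _ (h2 y hy)⟩ ⟨(h1 y hy).symm, hy⟩

theorem m_dvd (hm : Even m) {a c : X} (H : Nadj Γ a c) :
    m ∣ {w | Γ.Adj c w ∧ ∃ g ∈ N a, g • c = w}.ncard := by
  rw [← S.cardD a c H]
  obtain ⟨z, hz, za, zc⟩ := ex_inv S hm H
  refine H23.R3.dvd_free _ _ ?_ ?_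
  · rintro d ⟨da, dc⟩ _ ⟨h1, g, hg, rfl⟩
    replace da : d • a = a := da
    replace dc : d • c = c := dc
    refine ⟨by rw [← dc]; simpa [dc] using S.inv d _ _ h1, d * g * d⁻¹,
      da ▸ S.conjN a d g hg, ?_⟩
    rw [mul_smul, mul_smul, inv_smul_eq_iff.2 dc.symm]
  · rintro d ⟨da, dc⟩ _ ⟨h1, g, hg, rfl⟩ e
    replace da : d • a = a := da
    replace dc : d • c = c := dc
    obtain ⟨b, ⟨hb, zb⟩, un⟩ := Z.nbr c z hz zc
    have o2 : orderOf (d * z * d⁻¹) = 2 := by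
      rw [← hz]; exact (MulAut.conj d).orderOf_eq z
    have k1 : (d * z * d⁻¹) • a = a := by
      rw [mul_smul, mul_smul, inv_smul_eq_iff.2 da.symm, za, da]
    have k2 : (d * z * d⁻¹) • c = c := by
      rw [mul_smul, mul_smul, inv_smul_eq_iff.2 dc.symm, zc, dc]
    have k3 := semi S (Z.mul a _ _ hz o2 za k1) H.1.symm (by rw [mul_smul, k2, zc])
    have zz : z * z = 1 := by rw [← sq, ← hz, pow_orderOf_eq_one]
    have k4 : d * z * d⁻¹ = z := mul_left_cancel (k3.trans zz.symm)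
    have k5 : d • b = b := un _ ⟨by rw [← dc]; exact S.inv d _ _ hb, by
      nth_rw 1 [← k4]; rw [mul_smul, mul_smul, inv_smul_smul, zb]⟩
    refine S.frob d c b _ dc hb h1 (fun k => ?_) k5 e
    have := un_fix S Z hk hz za hg zc H.1.symm (k ▸ zb)
    rw [this, one_smul] at h1
    exact h1.ne rfl

omit S Z hk in
theorem jobFix : JobFix.{u, v} := by
  intro G X _ _ _ _ Γ N k lam mu h m u t S Z hk a c z H hz ha
  classical
  obtain ⟨b, ⟨hb, zb⟩, un⟩ := Z.nbr a z hz ha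
  have split : {y : X | z • y = y} = insert a (insert b {y | z • y = y ∧ Nadj Γ a y}) := by
    ext y
    simp only [Set.mem_ofPred_eq, Set.mem_insert_iff]
    refine ⟨fun hy => ?_, by rintro (rfl | rfl | hy); exacts [ha, zb, hy.1]⟩
    by_cases h1 : y = a
    · exact .inl h1
    by_cases h2 : Γ.Adj a y
    · exact .inr (.inl (un y ⟨h2, hy⟩))
    · exact .inr (.inr ⟨hy, Ne.symm h1, h2⟩)
  have bF : b ∉ {y | z • y = y ∧ Nadj Γ a y} := fun k => k.2.2 hb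
  have cF : {y : X | z • y = y}.ncard = {y | z • y = y ∧ Nadj Γ a y}.ncard + 2 := by
    rw [split, Set.ncard_insert_of_notMem (by
      rintro (k | k); exacts [hb.ne k, k.2.1 rfl]), Set.ncard_insert_of_notMem bF]
  refine ⟨fun hm => ?_, fun hm => ?_⟩
  · rw [cF, show {y | z • y = y ∧ Nadj Γ a y} = ∅ from Set.eq_empty_of_forall_notMem fun y hy => ?_,
      Set.ncard_empty]
    have := Subgroup.orderOf_dvd_natCard (stabilizer G a ⊓ stabilizer G y) (x := z) ⟨ha, hy.1⟩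
    rw [hz, S.cardD a y hy.2] at this
    exact (Nat.not_even_iff_odd.2 hm) (even_iff_two_dvd.2 this)
  have ex : ∀ y, y ≠ a → ∃ y0, (y0 = b ∨ (z • y0 = y0 ∧ Nadj Γ a y0)) ∧ ∃ x ∈ N a, x • y0 = y :=
    fun y hy => by
    by_cases h2 : Γ.Adj a y
    · exact ⟨b, .inl rfl, S.regN a b y hb h2⟩
    obtain ⟨z', hz', k1, k2⟩ := ex_inv S hm (⟨hy.symm, h2⟩ : Nadj Γ a y)
    obtain ⟨x, hx, e⟩ := Z.conj a z' z hz' hz k1 ha
    refine ⟨x • y, .inr ⟨?_, nadj_smul S (nfix S hx) ⟨hy.symm, h2⟩⟩, x⁻¹, inv_mem hx,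
      inv_smul_smul x y⟩
    rw [← e, mul_smul, mul_smul, inv_smul_smul, k2]
  choose! π hπ hπ' using ex
  have πf : ∀ y, y ≠ a → z • π y = π y ∧ π y ≠ a := fun y hy => by
    rcases hπ y hy with e | e
    · rw [e]; exact ⟨zb, hb.ne'⟩
    · exact ⟨e.1, e.2.1.symm⟩
  have πe : ∀ y0, z • y0 = y0 → y0 ≠ a → ∀ y, (y ≠ a ∧ π y = y0) ↔ ∃ x ∈ N a, x • y0 = y :=
    fun y0 h1 h2 y => by
    refine ⟨fun ⟨hy, e⟩ => e ▸ hπ' y hy, fun ⟨x, hx, e⟩ => ?_⟩
    have hy : y ≠ a := fun k => h2 (by rw [← inv_smul_smul x y0, e, k, nfix S (inv_mem hx)])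
    obtain ⟨x', hx', e'⟩ := hπ' y hy
    have e2 : (x'⁻¹ * x) • y0 = π y := by rw [mul_smul, e, inv_smul_eq_iff, e']
    have := un_fix S Z hk hz ha (mul_mem (inv_mem hx') hx) h1 h2 (by rw [e2, (πf y hy).1])
    rw [this, one_smul] at e2
    exact ⟨hy, e2.symm⟩
  have := Fintype.ofFinite X
  have sum : ∀ (A : Set X) (B : Finset X), (∀ y ∈ A, y ≠ a ∧ π y ∈ B) →
      (∀ y ∈ B, z • y = y ∧ y ≠ a) →
      A.ncard = ∑ y0 ∈ B, {w | w ∈ A ∧ ∃ g ∈ N a, g • y0 = w}.ncard := fun A B h1 h2 => by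
    rw [Set.ncard_eq_toFinset_card', Finset.card_eq_sum_card_fiberwise (f := π) (t := B)
      fun y hy => by simpa using (h1 y (by simpa using hy)).2]
    refine Finset.sum_congr rfl fun y0 hy0 => ?_
    rw [Set.ncard_eq_toFinset_card']
    congr 1
    ext w
    simp only [Finset.mem_filter, Set.mem_toFinset, Set.mem_ofPred_eq,
      ← πe y0 (h2 y0 hy0).1 (h2 y0 hy0).2]
    exact ⟨fun k => ⟨k.1, (h1 w k.1).1, k.2⟩, fun k => ⟨k.1, k.2.2⟩⟩
  have k0 : 0 < k := S.mu_pos.trans S.mu_lt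
  obtain ⟨F, hF⟩ : ∃ F : Finset X, ∀ y, y ∈ F ↔ z • y = y ∧ Nadj Γ a y :=
    ⟨Finset.univ.filter _, fun y => by simp; rfl⟩
  rw [show {y | z • y = y ∧ Nadj Γ a y} = F from Set.ext fun y => (hF y).symm,
    Set.ncard_coe_finset] at cF
  have cU : F.card = u := by
    have := sum {y | Nadj Γ a y} F (fun y hy => ⟨hy.1.symm, (hF _).2 <|
      (hπ y hy.1.symm).resolve_left fun e => by
        obtain ⟨x, hx, e'⟩ := hπ' y hy.1.symm
        exact hy.2 (by rw [← e', e, ← nfix S hx]; exact S.inv x _ _ hb)⟩)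
      fun y hy => ⟨((hF y).1 hy).1, ((hF y).1 hy).2.1.symm⟩
    rw [S.cardL, Finset.sum_congr rfl (g := fun _ => k) fun y0 hy0 => ?_, Finset.sum_const,
      smul_eq_mul] at this
    · exact (Nat.eq_of_mul_eq_mul_right k0 this).symm
    rw [hF] at hy0
    rw [← S.cardO a y0 hy0.2]
    congr 1
    ext w
    exact ⟨fun k => k.2, fun ⟨g, hg, e⟩ => ⟨e ▸ nadj_smul S (nfix S hg) hy0.2, g, hg, e⟩⟩
  rw [cU] at cF
  refine ⟨cF, by simpa [cF, Nat.even_add] using even_fix Z hz, ?_, m_dvd S Z hk hm H⟩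
  have ne : ∀ y, Γ.Adj y (z • y) → y ≠ a := fun y hy e => by
    rw [e, ha] at hy; exact hy.ne rfl
  rw [sum {y | Γ.Adj y (z • y)} (insert b F) (fun y hy => ⟨ne y hy, by
      rw [Finset.mem_insert, hF]; exact hπ y (ne y hy)⟩) (fun y hy => by
      rw [Finset.mem_insert, hF] at hy
      rcases hy with rfl | hy
      exacts [⟨zb, hb.ne'⟩, ⟨hy.1, hy.2.1.symm⟩]),
    Finset.sum_insert fun k => bF ((hF b).1 k),
    Finset.sum_congr rfl (g := fun _ => {w | Γ.Adj c w ∧ ∃ g ∈ N a, g • c = w}.ncard)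
      fun y0 hy0 => ?_, Finset.sum_const, smul_eq_mul, cU]
  · congr 1
    refine (fib S Z hk hz ha zb hb.ne').trans ?_
    rw [← S.adj a b hb]
    congr 1
    ext w
    exact ⟨fun ⟨k, g, hg, e⟩ => ⟨by rw [← e, ← nfix S hg]; exact S.inv g _ _ hb, k⟩,
      fun k => ⟨k.2, S.regN a b w hb k.1⟩⟩
  · rw [hF] at hy0
    refine (fib S Z hk hz ha hy0.1 hy0.2.1.symm).trans ?_
    obtain ⟨s, sa, rfl⟩ := S.narc a y0 c hy0.2 H
    refine H23.R3.ncard_smul s fun w => ?_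
    simp only [Set.mem_ofPred_eq, adj_iff S]
    refine and_congr_right fun _ => ⟨fun ⟨g, hg, e⟩ => ⟨s⁻¹ * g * s⁻¹⁻¹, ?_, ?_⟩,
      fun ⟨g, hg, e⟩ => ⟨s * g * s⁻¹, sa ▸ S.conjN a s g hg, ?_⟩⟩
    · have := S.conjN a s⁻¹ g hg
      rwa [inv_smul_eq_iff.2 sa.symm] at this
    · rw [inv_inv, mul_smul, mul_smul, e, inv_smul_smul]
    · rw [mul_smul, mul_smul, inv_smul_smul, e]

end H79.R3Fix
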