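/- Multiplicities of sign characters in complex representations. -/
import Cfsg.Agent.H29.Central
import Cfsg.Agent.H28.RepBasic

set_option autoImplicit false
open Module

namespace H79.RA

variable {H V : Type*} [Group H] [AddCommGroup V] [Module ℂ V]

/-- twist by a sign character -/
noncomputable def tw (σ : Representation ℂ H V) (ε : H →* ℤˣ) : Representation ℂ H V where
  toFun g := ((ε g : ℤ) : ℂ) • σ g
  map_one' := by simp
  map_mul' a b := by simp [smul_smul, mul_comm]

/-- multiplicity of a sign character -/
noncomputable def mu (σ : Representation ℂ H V) (ε : H →* ℤˣ) : ℕ := finrank ℂ (tw σ ε).invariants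

theorem tw_apply (σ : Representation ℂ H V) (ε : H →* ℤˣ) (g : H) (v : V) :
    tw σ ε g v = ((ε g : ℤ) : ℂ) • σ g v := rfl

theorem tw_one (σ : Representation ℂ H V) : tw σ 1 = σ := by
  ext g v; simp [tw_apply]

variable [FiniteDimensional ℂ V]

theorem inv_eq [Fintype H] (σ : Representation ℂ H V) :
    (Nat.card H : ℂ) * finrank ℂ σ.invariants = ∑ g, σ.character g := by
  have h : (Nat.card H : ℂ) ≠ 0 := Nat.cast_ne_zero.2 Nat.card_pos.ne'
  have := invertibleOfNonzero h
  rw [← σ.card_inv_mul_sum_char_eq_finrank, mul_inv_cancel_left₀ h]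

theorem mu_eq [Fintype H] (σ : Representation ℂ H V) (ε : H →* ℤˣ) :
    (Nat.card H : ℂ) * mu σ ε = ∑ g, ((ε g : ℤ) : ℂ) * σ.character g := by
  rw [mu, inv_eq]
  exact Finset.sum_congr rfl fun g _ => map_smul (LinearMap.trace ℂ V) _ _

theorem fix_of_mu (σ : Representation ℂ H V) {ε : H →* ℤˣ} (h : mu σ ε = 0) {v : V}
    (hv : ∀ g, ε g = 1 → σ g v = v) (g : H) : σ g v = v := by
  rcases Int.units_eq_one_or (ε g) with e | e
  · exact hv g e
  have k : v - σ g v ∈ (tw σ ε).invariants := fun x => by
    rw [tw_apply, map_sub]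
    rcases Int.units_eq_one_or (ε x) with f | f
    · have := hv (g⁻¹ * x * g) (by simp [f])
      have t : σ x (σ g v) = σ g (σ (g⁻¹ * x * g) v) := by
        rw [← Module.End.mul_apply, ← Module.End.mul_apply, ← map_mul, ← map_mul]; group
      rw [t, this, hv x f, f]; simp
    · have a := hv (x * g) (by simp [e, f])
      have b := hv (g⁻¹ * x) (by simp [e, f])
      have t : σ x v = σ g (σ (g⁻¹ * x) v) := by
        rw [← Module.End.mul_apply, ← map_mul]; group
      rw [map_mul, Module.End.mul_apply] at a
      rw [a, t, b, f]; simp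
  rw [Submodule.finrank_eq_zero.1 h, Submodule.mem_bot, sub_eq_zero] at k
  exact k.symm

/-- divisibility from the central character -/
theorem dvd_central [Finite H] (σ : Representation ℂ H V) [σ.IsIrreducible] {g : H} {k : ℤ}
    (hk : σ.character g = k) {K : Type*} [Group K] (φ : K →* H) (hφ : Function.Injective φ)
    (hc : ∀ x, φ x * g = g * φ x) {m : ℕ} (hm : Nat.card H = m * Nat.card K) :
    (finrank ℂ V : ℤ) ∣ m * k := by
  have h := H29.isIntegral_centralChar σ g
  have h0 : finrank ℂ V ≠ 0 := by
    have := H28.nontrivial_of_isIrreducible σ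
    exact finrank_pos.ne'
  have e : φ.range.index = m := by
    have := φ.range.index_mul_card
    rw [← Nat.card_congr (MonoidHom.ofInjective hφ).toEquiv, hm] at this
    have : Finite K := Finite.of_injective _ hφ
    exact Nat.eq_of_mul_eq_mul_right Nat.card_pos ‹_›
  obtain ⟨r, hr⟩ : (Subgroup.centralizer {g}).index ∣ m := e ▸ Subgroup.index_dvd_of_le (by
    rintro _ ⟨x, rfl⟩; exact Subgroup.mem_centralizer_singleton_iff.2 (hc x))
  rw [hk] at h
  have h' : IsIntegral ℤ ((((Subgroup.centralizer {g}).index * k : ℤ) : ℚ) / (finrank ℂ V : ℚ)) := by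
    rw [← isIntegral_algebraMap_iff (B := ℂ) (algebraMap ℚ ℂ).injective]
    simpa using h
  obtain ⟨y, hy⟩ := IsIntegrallyClosed.isIntegral_iff.1 h'
  rw [eq_div_iff (by exact_mod_cast h0), eq_intCast] at hy
  have : y * finrank ℂ V = (Subgroup.centralizer {g}).index * k := by exact_mod_cast hy
  exact ⟨y * r, by rw [hr]; push_cast; linear_combination (-r) * this⟩

theorem char_invol (σ : Representation ℂ H V) {e : H} (h : e * e = 1) :
    ∃ a : ℕ, a ≤ finrank ℂ V ∧ σ.character e = 2 * a - finrank ℂ V ∧ (a = finrank ℂ V → σ e = 1) := by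
  let φ : Multiplicative (ZMod 2) →* H := MonoidHom.mk' (fun x => if x = 1 then 1 else e) (by
    intro a b
    fin_cases a <;> fin_cases b
    · exact (one_mul _).symm
    · exact (one_mul _).symm
    · exact (mul_one _).symm
    · exact h.symm)
  have k := inv_eq (σ.comp φ : Representation ℂ _ V)
  refine ⟨_, Submodule.finrank_le (Representation.invariants (σ.comp φ)), ?_, fun a => ?_⟩
  · have t : ∑ g, Representation.character (σ.comp φ) g = σ.character 1 + σ.character e :=
      Fin.sum_univ_two (fun i : Fin 2 => Representation.character (σ.comp φ) (Multiplicative.ofAdd i))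
    rw [t, Representation.char_one, Nat.card_eq_fintype_card] at k
    simp only [Fintype.card_multiplicative, ZMod.card, Nat.cast_ofNat] at k
    linear_combination -k
  · ext v
    exact (Submodule.eq_top_of_finrank_eq a).ge (Submodule.mem_top (x := v)) (Multiplicative.ofAdd 1)

/-- a group of order 16 whose elements other than 1 have the same trace as an involution -/
theorem fifteen {E : Type*} [Group E] (σ : Representation ℂ H V) (φ : E →* H) (hE : Nat.card E = 16)
    {e : H} (h : e * e = 1) (hc : ∀ x, x ≠ 1 → σ.character (φ x) = σ.character e) :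
    σ e = 1 ∨ 15 ≤ finrank ℂ V := by
  classical
  have : Finite E := Nat.finite_of_card_ne_zero (by omega)
  have := Fintype.ofFinite E
  obtain ⟨a, h1, h2, h3⟩ := char_invol σ h
  have k := inv_eq (σ.comp φ : Representation ℂ _ V)
  rw [← Finset.add_sum_erase _ _ (Finset.mem_univ 1), Representation.char_one,
    Finset.sum_congr rfl (f := Representation.character (σ.comp φ)) (g := fun _ => σ.character e)
      fun x hx => hc x (Finset.ne_of_mem_erase hx),
    Finset.sum_const, Finset.card_erase_of_mem (Finset.mem_univ _), Finset.card_univ,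
    ← Nat.card_eq_fintype_card, hE, h2] at k
  generalize finrank ℂ (Representation.invariants (σ.comp φ)) = b at k
  have : 16 * b + 14 * finrank ℂ V = 30 * a := by
    have : (16 * b + 14 * finrank ℂ V : ℂ) = 30 * a := by
      simp only [nsmul_eq_mul] at k; push_cast at k; linear_combination k
    exact_mod_cast this
  by_cases t : a = finrank ℂ V
  · exact .inl (h3 t)
  · right; omega

end H79.RA
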