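import Cfsg.Agent.H79.PSB
import Cfsg.Agent.H28.CharCenter

/-! The principal block count for an abelian `p`-subgroup matched with each of its conjugates and
generating the group: the nonlinear characters of the principal block vanish on it. -/

set_option autoImplicit false
set_option linter.unusedSectionVars false

namespace H79.XC

open Cfsg H28 H35 H41 H87 H79.PS
open scoped ComplexConjugate

variable {G : Type*} [Group G] [Finite G] {W : Subgroup G} {π : G → W → G}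

theorem lin_of_center {χ : G → ℂ} (hχ : IsIrrCharacter G χ)
    (htop : Subgroup.normalClosure (W : Set G) = ⊤) (h : W ≤ charCenter χ) : χ 1 = 1 := by
  have := hχ.charCenter_normal
  obtain ⟨n, hn, h1⟩ := hχ.exists_degree_pos
  have h2 := hχ.degree_sq_le_index (Z := ⊤) (htop ▸ Subgroup.normalClosure_le_normal h) h1
  rw [Subgroup.index_top] at h2
  rw [h1, show n = 1 by nlinarith, Nat.cast_one]

theorem sum_ne_zero [Fintype W] (hπ : Mt W π) (htop : Subgroup.normalClosure (W : Set G) = ⊤)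
    (hc : ∀ a ∈ W, ∀ b ∈ W, a * b = b * a) {χ : G → ℂ} (hχ : IsIrrCharacter G χ)
    (hv : Val W π χ) (h1 : χ 1 ≠ 1) : ∑ w : W, χ w ≠ 0 := fun h0 => by
  have := hχ.charKer_normal
  set f := QuotientGroup.mk' (charKer χ) with hf
  have h2 : ((W.map f).comap f).Normal := ⟨fun y ⟨w, hw, hy⟩ g => by
    obtain ⟨σ, hσ⟩ := hπ.bij g
    refine ⟨σ.symm ⟨w, hw⟩, (σ.symm ⟨w, hw⟩).2, ?_⟩
    have h3 : f (σ.symm ⟨w, hw⟩) = f (π g (σ.symm ⟨w, hw⟩)) :=
      QuotientGroup.eq.2 (ker_of_sum_zero hπ hχ hv h0 _ g)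
    rw [h3, hσ, Equiv.apply_symm_apply]
    simp [hy]⟩
  have h3 : ⊤ ≤ (W.map f).comap f :=
    htop ▸ Subgroup.normalClosure_le_normal (Subgroup.le_comap_map f W)
  refine h1 (lin_of_center hχ htop fun z hz => hχ.mem_charCenter_iff_commutator.2 fun g => ?_)
  obtain ⟨w, hw, h4⟩ := h3 (Subgroup.mem_top g)
  rw [← QuotientGroup.eq_one_iff]
  change f _ = 1
  rw [map_mul, map_mul, map_mul, map_inv, map_inv, ← h4, ← map_mul, hc z hz w hw]
  simp

theorem eq_of_lin (htop : Subgroup.normalClosure (W : Set G) = ⊤) {χ ψ : G → ℂ}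
    (hχ : IsCharacter G χ) (hψ : IsCharacter G ψ) (h1 : χ 1 = 1) (h2 : ψ 1 = 1)
    (h : ∀ w : W, χ w = ψ w) : χ = ψ := by
  obtain ⟨f, rfl⟩ := hχ.exists_hom h1
  obtain ⟨f', rfl⟩ := hψ.exists_hom h2
  have h3 : (f.eqLocus f').Normal := ⟨fun y hy g => by
    change f _ = f' _
    rw [map_mul, map_mul, map_mul, map_mul, show f y = f' y from hy, map_inv, map_inv,
      mul_inv_cancel_comm, mul_inv_cancel_comm]⟩
  have h4 : ⊤ ≤ f.eqLocus f' :=
    htop ▸ Subgroup.normalClosure_le_normal fun w hw => Units.ext (h ⟨w, hw⟩)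
  funext g
  rw [show f g = f' g from h4 (Subgroup.mem_top g)]

theorem card_lin_le (htop : Subgroup.normalClosure (W : Set G) = ⊤)
    (hc : ∀ a ∈ W, ∀ b ∈ W, a * b = b * a) (s : Finset (IrrCharacter G))
    (hs : ∀ χ ∈ s, (χ : G → ℂ) 1 = 1) : s.card ≤ Nat.card W := by
  rw [← card_irr_of_comm (G := W) fun a b => Subtype.ext (hc a a.2 b b.2), ← Nat.card_eq_finsetCard]
  refine Nat.card_le_card_of_injective (fun χ : s => (⟨fun w : W => (χ.1 : G → ℂ) w,
    (χ.1.2.isCharacter.restrict W).irr_of_degree_one (hs _ χ.2)⟩ : IrrCharacter W))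
    fun χ ψ h => Subtype.ext (Subtype.ext (eq_of_lin htop χ.1.2.isCharacter ψ.1.2.isCharacter
      (hs _ χ.2) (hs _ ψ.2) (congrFun (congrArg Subtype.val h))))

variable {p : ℕ} [hp : Fact p.Prime] {M : Ideal AlgInt} [M.IsMaximal]

theorem vanish (hM : IsPModular p M) (hW : IsPGroup p W) (hπ : Mt W π)
    (hreg : ∀ g (x : W), ¬ p ∣ orderOf ((x : G)⁻¹ * π g x))
    (hv : ∀ χ ∈ principalBlock M G, Val W π χ) (hq : 3 ≤ Nat.card W)
    (htop : Subgroup.normalClosure (W : Set G) = ⊤) (hc : ∀ a ∈ W, ∀ b ∈ W, a * b = b * a)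
    {χ : IrrCharacter G} (hχ : χ ∈ principalBlock M G) (hχ1 : (χ : G → ℂ) 1 ≠ 1) {u : W}
    (hu : u ≠ 1) : (χ : G → ℂ) u = 0 := by
  classical
  cases nonempty_fintype G
  cases nonempty_fintype W
  have hu1 : (u : G) ≠ 1 := fun h => hu (Subtype.ext h)
  have h1 : ∀ χ : IrrCharacter G, ∃ a : ℤ, χ ∈ principalBlock M G → (χ : G → ℂ) 1 ≠ 1 →
      ∀ y : W, y ≠ 1 → (χ : G → ℂ) y = a := fun χ => by
    by_cases hχ : χ ∈ principalBlock M G ∧ (χ : G → ℂ) 1 ≠ 1
    · have h2 := fun (y : W) (hy : y ≠ 1) => const hM hW hπ hreg hv hχ.1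
        (sum_ne_zero hπ htop hc χ.2 (hv χ hχ.1) hχ.2) hy hu
      obtain ⟨a, ha⟩ := exists_int χ.2.isCharacter hu h2
      exact ⟨a, fun _ _ y hy => (h2 y hy).trans ha⟩
    · exact ⟨0, fun h h' => (hχ ⟨h, h'⟩).elim⟩
  choose a ha using h1
  have hd : ∀ χ : IrrCharacter G, (0 : ℝ) < dg χ := fun χ => by exact_mod_cast dg_pos χ
  obtain ⟨q, hq'⟩ : ∃ q : ℝ, q = (Nat.card W : ℝ) := ⟨_, rfl⟩
  have hq3 : (3 : ℝ) ≤ q := by rw [hq']; exact_mod_cast hq
  set B := bF (principalBlock M G) with hB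
  set L := B.filter fun χ : IrrCharacter G => (χ : G → ℂ) 1 = 1 with hL
  set N := B.filter fun χ : IrrCharacter G => ¬ (χ : G → ℂ) 1 = 1 with hN
  have hN' : ∀ χ ∈ N, χ ∈ principalBlock M G ∧ (χ : G → ℂ) 1 ≠ 1 := fun χ hχ =>
    ⟨mem_bF.1 (Finset.mem_filter.1 hχ).1, (Finset.mem_filter.1 hχ).2⟩
  have h5 : one G ∈ L := Finset.mem_filter.2 ⟨mem_bF.2 H37.one_mem_principalBlock, rfl⟩
  have h6 : ∀ χ ∈ L.erase (one G), ∑ w : W, (χ : G → ℂ) w = 0 := fun χ hχ => by
    have h7 := (Finset.mem_filter.1 (Finset.mem_of_mem_erase hχ)).2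
    exact ((χ.2.isCharacter.restrict W).irr_of_degree_one h7).sum_eq_zero fun h8 =>
      Finset.ne_of_mem_erase hχ (Subtype.ext (eq_of_lin htop χ.2.isCharacter isCharacter_one h7 rfl
        (congrFun h8)))
  have h2 : q - L.card + (q - 1) * ∑ χ ∈ N, (dg χ : ℝ) * a χ = 0 := by
    have h7 : ∑ χ ∈ B, (χ : G → ℂ) 1 * (conj (∑ w : W, (χ : G → ℂ) w) - (χ : G → ℂ) 1) = 0 := by
      rw [← Finset.sum_eq_zero (s := Finset.univ.erase (1 : W)) fun w hw =>
        orth hM (ord_of_mem hW w) (fun h => Finset.ne_of_mem_erase hw (Subtype.ext h)) (y := 1)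
          (by simp [hp.out.ne_one]), Finset.sum_comm]
      refine Finset.sum_congr rfl fun χ _ => ?_
      rw [← Finset.mul_sum, ← map_sum, ← Finset.add_sum_erase _ _ (Finset.mem_univ (1 : W)),
        map_add, OneMemClass.coe_one, χ.2.isCharacter.conj_apply_one, add_sub_cancel_left]
    rw [← Finset.sum_filter_add_sum_filter_not B
      fun χ : IrrCharacter G => (χ : G → ℂ) 1 = 1, ← hL, ← hN,
      ← Finset.add_sum_erase _ _ h5, Finset.sum_congr rfl (s₁ := L.erase (one G))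
        (g := fun _ => -1) fun χ hχ => by
        rw [h6 χ hχ, (Finset.mem_filter.1 (Finset.mem_of_mem_erase hχ)).2]; simp,
      Finset.sum_congr rfl (s₁ := N) (g := fun χ : IrrCharacter G => (((q - 1) * ((dg χ : ℝ) * a χ) : ℝ) : ℂ))
        fun χ hχ => by
          rw [sum_const (ha χ (hN' χ hχ).1 (hN' χ hχ).2), ← coe_dg, hq']; simp; ring,
      Finset.sum_const (s := L.erase (one G)), Finset.card_erase_of_mem h5, ← Complex.ofReal_sum, ← Finset.mul_sum,
      nsmul_eq_mul, Nat.cast_sub (Finset.card_pos.2 ⟨_, h5⟩)] at h7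
    apply Complex.ofReal_injective
    rw [Complex.ofReal_zero, ← h7, hq']
    simp
  have h3 : ∑ χ ∈ N, (a χ : ℝ) ^ 2 * ((q - 2) - (q - 1) * a χ / dg χ) +
      ∑ χ ∈ N, (dg χ : ℝ) * a χ = 0 := by
    have h4 := rel hM hW hπ hreg hv u hu
    rw [← hB, ← Finset.sum_filter_add_sum_filter_not B
      fun χ : IrrCharacter G => (χ : G → ℂ) 1 = 1, ← hL, ← hN,
      ← Finset.add_sum_erase _ _ h5, Finset.sum_eq_zero (s := L.erase (one G))
        fun χ hχ => by rw [h6 χ hχ]; simp,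
      Finset.sum_congr rfl (s₁ := N) (g := fun χ : IrrCharacter G => (((a χ : ℝ) ^ 2 *
        ((q - 2) - (q - 1) * a χ / dg χ) + (dg χ : ℝ) * a χ : ℝ) : ℂ)) fun χ hχ => by
        have h5 : (dg χ : ℂ) ≠ 0 := by exact_mod_cast (dg_pos χ).ne'
        rw [sum_const (ha χ (hN' χ hχ).1 (hN' χ hχ).2), ha χ (hN' χ hχ).1 (hN' χ hχ).2 u hu,
          map_intCast, ← coe_dg, hq']
        push_cast
        field_simp
        ring, ← Complex.ofReal_sum, Finset.sum_add_distrib] at h4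
    apply Complex.ofReal_injective
    simpa using h4
  have h7 : (L.card : ℝ) ≤ q := by
    rw [hq']
    exact_mod_cast card_lin_le htop hc L fun χ hχ => (Finset.mem_filter.1 hχ).2
  have h7' : (1 : ℝ) ≤ L.card := by exact_mod_cast Finset.card_pos.2 ⟨_, h5⟩
  have h8 : ∀ χ ∈ N, 0 ≤ (a χ : ℝ) ^ 2 * ((q - 2) - (q - 1) * a χ / dg χ) := fun χ hχ => by
    obtain ⟨hχ', hχ1⟩ := hN' χ hχ
    have h9 := re_le χ.2.isCharacter (u : G)
    rw [ha χ hχ' hχ1 u hu, ← coe_dg, Complex.intCast_re, Complex.natCast_re] at h9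
    have h10 : a χ ≠ dg χ := fun h => hχ1 (lin_of_center χ.2 htop fun y hy =>
      charKer_le_charCenter (χ.2.mem_charKer.2 (by
        by_cases hy1 : y = 1
        · rw [hy1]
        · rw [ha χ hχ' hχ1 ⟨y, hy⟩ fun h => hy1 (congrArg Subtype.val h), h, ← coe_dg]; simp)))
    have h11 := bound hπ hq (hv χ hχ') (ha χ hχ' hχ1)
      (lt_of_le_of_ne (by exact_mod_cast h9) h10)
    exact mul_nonneg (sq_nonneg _) (by
      have := (div_le_one (hd χ)).2 h11
      rw [← hq'] at this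
      linarith)
  have h9 : ∀ χ ∈ N, 0 ≤ (dg χ : ℝ) * a χ := fun ψ hψ => by
    by_contra h10
    have h11 : (a ψ : ℝ) ≤ -1 := by
      have : (a ψ : ℝ) < 0 := neg_of_mul_neg_right (not_le.1 h10) (hd ψ).le
      have : a ψ < 0 := by exact_mod_cast this
      exact_mod_cast (show a ψ ≤ -1 by omega)
    have h12 : (q - 1) * a ψ / dg ψ < 0 := div_neg_of_neg_of_pos (by nlinarith) (hd ψ)
    have h13 : (1 : ℝ) ≤ (a ψ : ℝ) ^ 2 := by nlinarith
    have h14 := le_mul_of_one_le_left (show 0 ≤ (q - 2) - (q - 1) * a ψ / dg ψ by linarith) h13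
    have h15 := Finset.single_le_sum h8 hψ
    nlinarith
  have h10 : χ ∈ N := Finset.mem_filter.2 ⟨mem_bF.2 hχ, hχ1⟩
  have h11 : ∑ χ ∈ N, (dg χ : ℝ) * a χ = 0 :=
    le_antisymm (by nlinarith) (Finset.sum_nonneg h9)
  have h12 := (Finset.sum_eq_zero_iff_of_nonneg h9).1 h11 χ h10
  rw [ha χ hχ hχ1 u hu]
  exact_mod_cast (mul_eq_zero.1 h12).resolve_left (hd χ).ne'

theorem conj_of_vanish (hM : IsPModular p M) {u y : G} (hu : ∃ k, orderOf u = p ^ k)
    (hy : ∃ k, orderOf y = p ^ k) (h : u⁻¹ * y ∈ commutator G)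
    (hv : ∀ χ ∈ principalBlock M G, (χ : G → ℂ) 1 ≠ 1 → (χ : G → ℂ) u = 0) : IsConj y u := by
  classical
  cases nonempty_fintype G
  by_contra h1
  have h2 := bker_prin_eq_zero hM (isPPart_self hp.out hy) (isPPart_self hp.out hu) h1
  rw [H34.bker_eq_sum_bF, Finset.sum_congr rfl
    (g := fun χ : IrrCharacter G => ((‖(χ : G → ℂ) u‖ ^ 2 : ℝ) : ℂ)) fun χ hχ => by
      by_cases h3 : (χ : G → ℂ) 1 = 1
      · have h4 := χ.2.isClassFunction.apply_mul_of_mem_charKer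
          (χ.2.isCharacter.commutator_le_charKer h3 h) u
        rw [mul_inv_cancel_left] at h4
        rw [h4, Complex.mul_conj']; simp
      · simp [hv χ (mem_bF.1 hχ) h3], ← Complex.ofReal_sum, Complex.ofReal_eq_zero,
    Finset.sum_eq_zero_iff_of_nonneg fun _ _ => sq_nonneg _] at h2
  simpa using h2 (one G) (mem_bF.2 H37.one_mem_principalBlock)

end H79.XC
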