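import Cfsg.Agent.H79.XCA
import Cfsg.Agent.H40.GlP2
import Cfsg.Agent.H40.GlCan
import Cfsg.Agent.S4447
import Cfsg.Agent.H34.KgvW

/-! The coprime case, via the Glauberman correspondence. -/

set_option autoImplicit false
set_option linter.unusedSectionVars false

namespace H79.XC

open Cfsg H28 H40
open scoped ComplexConjugate

variable {Γ : Type*} [Group Γ] [Finite Γ] {p : ℕ} [hp : Fact p.Prime]

theorem cop_card {K H : Subgroup Γ} (hK : ¬ p ∣ Nat.card K) (hH : IsPGroup p H) :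
    (Nat.card K).Coprime (Nat.card H) := by
  obtain ⟨k, hk⟩ := hH.exists_card_eq
  rw [hk]
  exact (hp.out.coprime_iff_not_dvd.2 hK).symm.pow_right k

theorem val_ext {K : Subgroup Γ} [K.Normal] {X : Γ → ℂ} (hX : IsCharacter Γ X)
    (hθ : IsIrrCharacter K fun k => X k) {u : Γ}
    (hu : (Nat.card K).Coprime (Nat.card (Subgroup.zpowers u))) :
    ∃ β : ↥(K ⊓ Subgroup.centralizer {u}) → ℂ, IsIrrCharacter _ β ∧ ∃ α : ℂ, α ≠ 0 ∧
      ∀ c : ↥(K ⊓ Subgroup.centralizer {u}), X (c * u) = α * β c := by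
  cases nonempty_fintype ↥(K ⊓ Subgroup.centralizer {u})
  have hd : GlData K (K ⊓ Subgroup.centralizer {u}) u := glData_of_fix (S := Subgroup.zpowers u)
    (by rw [K.normalizer_eq_top]; exact le_top) hu (Subgroup.mem_zpowers u) rfl
  obtain ⟨β, hβ, hr⟩ := hd.exists_rel_right hθ fun g g' h => by
    rw [h]
    exact (hX.isClassFunction.eq_of_isConj (isConj_iff.2 ⟨u, rfl⟩)).symm
  obtain ⟨Y, hY, hY'⟩ := exists_prodExt (C := K ⊓ Subgroup.centralizer {u})
    (S := Subgroup.zpowers u) (by rw [← centralizer_zpowers']; exact inf_le_right)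
    ((Subgroup.disjoint_of_coprime_natCard hu).mono_left inf_le_left) hβ.isCharacter
  have hY1 : IsExt _ u β Y := ⟨hY, fun c => by simpa using hY' c 1 (one_mem _)⟩
  have hX1 : IsExt K u (fun k => X k) X := ⟨hX.restrict _, fun _ => rfl⟩
  have h0 := hd.inner_ne_zero_of_rel hθ hβ hX1 hY1 hr
  exact ⟨β, hβ, _, h0, fun c => by
    rw [(hd.key hθ hβ hX1 hY1 h0).2 c, hY' c u (Subgroup.mem_zpowers u)]⟩

theorem inv_triv {E H : Subgroup Γ} (hE : ¬ p ∣ Nat.card E) (hH : IsPGroup p H)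
    (hn : H ≤ Subgroup.normalizer (E : Set Γ)) (h0 : E ⊓ Subgroup.centralizer (H : Set Γ) = ⊥)
    {ψ : E → ℂ} (hψ : IsIrrCharacter E ψ) (hi : InvAll E H ψ) : ψ = fun _ => 1 := by
  have hC := pCorr_abs hH hn (cop_card hE hH) h0.symm bot_le
  have hi' : InvAll E H fun _ => 1 := fun _ _ _ _ _ => rfl
  obtain ⟨β, h1, h2, h3⟩ := hC.ex_right hψ hi
  obtain ⟨β', h1', -, h3'⟩ := hC.ex_right isIrrCharacter_one hi'
  have key : ∀ γ : (⊥ : Subgroup Γ) → ℂ, IsIrrCharacter _ γ → γ = fun _ => 1 := fun γ hγ =>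
    funext fun c => by
      rw [Subsingleton.elim c 1]
      exact hγ.apply_one_of_comm fun a b => Subsingleton.elim _ _
  rw [key β' h1', ← key β h1] at h3'
  exact hC.uniq_left hψ isIrrCharacter_one h1 hi hi' h2 h3 h3'

theorem le_ker {L E H : Subgroup Γ} (hL : ¬ p ∣ Nat.card L) (hH : IsPGroup p H) (hEL : E ≤ L)
    (hLE : L ≤ Subgroup.normalizer (E : Set Γ)) (hHL : H ≤ Subgroup.normalizer (L : Set Γ))
    (hn : H ≤ Subgroup.normalizer (E : Set Γ)) (h0 : E ⊓ Subgroup.centralizer (H : Set Γ) = ⊥)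
    {β : L → ℂ} (hβ : IsIrrCharacter L β) (hi : InvAll L H β) {c : L} (hc : (c : Γ) ∈ E) :
    β c = β 1 := by
  cases nonempty_fintype Γ
  cases nonempty_fintype L
  cases nonempty_fintype E
  cases nonempty_fintype (E.subgroupOf L)
  have hN : (E.subgroupOf L).Normal := (Subgroup.normal_subgroupOf_iff_le_normalizer hEL).2 hLE
  have := hH.isNilpotent
  obtain ⟨θ, h1, h2⟩ := Cfsg.Agent.S4447.result L H E
    (fun s hs g hg => (Subgroup.mem_normalizer_iff.1 (hHL hs) g).1 hg) hEL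
    (fun s hs g hg => (Subgroup.mem_normalizer_iff.1 (hn hs) g).1 hg)
    ((cop_card hL hH).coprime_dvd_left (Subgroup.relIndex_dvd_card E L))
    (Or.inl inferInstance) ⟨β, hβ⟩ hi
  rw [inv_triv (fun h => hL (h.trans (Subgroup.card_dvd_of_le hEL))) hH hn h0 θ.2 h2] at h1
  refine apply_of_mem_charKer (hβ.le_charKer_of_classInner_ne_zero (E.subgroupOf L) ?_ hc)
  rw [classInner_one_right] at h1 ⊢
  rw [← Equiv.sum_comp (Subgroup.subgroupOfEquivOfLe hEL).toEquiv] at h1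
  exact mul_ne_zero (inv_ne_zero (Nat.cast_ne_zero.2 Nat.card_pos.ne')) (right_ne_zero_of_mul h1)

theorem coprime_case (hp2 : p ≠ 2) {K H : Subgroup Γ} [K.Normal] (hK : ¬ p ∣ Nat.card K)
    (hH : IsPGroup p H) (hKc : K ≤ commutator Γ) (htop : K ⊔ H = ⊤)
    (hnc : Subgroup.normalClosure (H : Set Γ) = ⊤) (hc : ∀ a ∈ H, ∀ b ∈ H, a * b = b * a)
    (hE : ∀ a ∈ H, a * a ≠ 1 → ∃ E : Subgroup Γ, E ≤ K ⊓ Subgroup.centralizer {a * a} ∧
      Subgroup.centralizer {a * a} ≤ Subgroup.normalizer (E : Set Γ) ∧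
      E ⊓ Subgroup.centralizer (H : Set Γ) = ⊥ ∧
      ∀ k ∈ K, ∃ c ∈ E, IsConj (c * (a * a)) (k * a * k⁻¹ * a)) :
    K ⊓ Subgroup.centralizer (H : Set Γ) = ⊥ := by
  cases nonempty_fintype K
  by_contra hne
  set C := K ⊓ Subgroup.centralizer (H : Set Γ) with hC
  cases nonempty_fintype C
  have hHK : H ≤ Subgroup.normalizer (K : Set Γ) := by rw [K.normalizer_eq_top]; exact le_top
  have : Nontrivial C := (Subgroup.nontrivial_iff_ne_bot _).2 hne
  obtain ⟨c0, hc0⟩ := exists_ne (1 : C)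
  obtain ⟨β0, hβ0, h1⟩ := exists_irr_not_mem_charKer hc0
  obtain ⟨θ, hθ, hi, hm⟩ := (pCorr_abs hH hHK (cop_card hK hH) hC inf_le_left).ex_left hβ0
    (invAll_of_le_centralizer inf_le_right β0)
  obtain ⟨X, hX⟩ := exists_canData hHK (cop_card hK hH) htop hC hθ hi
  have hθ' : IsIrrCharacter K fun k => X k := by rwa [funext hX.ext]
  have hXc := hX.irrX.isCharacter
  have hcu : ∀ u ∈ H, (Nat.card K).Coprime (Nat.card (Subgroup.zpowers u)) := fun u hu =>
    cop_card hK (hH.to_le (Subgroup.zpowers_le.2 hu))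
  have h2 : ∀ u ∈ H, X u ≠ 0 := fun u hu => by
    obtain ⟨β, hβ, α, hα, h⟩ := val_ext hXc hθ' (hcu u hu)
    have h3 := h 1
    rw [OneMemClass.coe_one, one_mul] at h3
    rw [h3]
    exact mul_ne_zero hα hβ.apply_one_ne_zero
  have hsq : ∀ a ∈ H, a ≠ 1 → a * a ≠ 1 := fun a ha ha1 h => by
    obtain ⟨k, hk⟩ := hH ⟨a, ha⟩
    have h3 : a ^ p ^ k = 1 := congrArg Subtype.val hk
    have h4 := Nat.Coprime.eq_one_of_dvd (Nat.Coprime.coprime_dvd_left
      (orderOf_dvd_of_pow_eq_one h3) (((Nat.coprime_primes hp.out Nat.prime_two).2 hp2).pow_left k))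
      (orderOf_dvd_of_pow_eq_one (by rwa [sq]))
    exact ha1 (orderOf_eq_one_iff.1 h4)
  have h3 : ∀ a ∈ H, a ≠ 1 → X (a * a) * X 1 = X a * X a := fun a ha ha1 => by
    have hu := mul_mem ha ha
    obtain ⟨E, e1, e2, e3, e4⟩ := hE a ha (hsq a ha ha1)
    obtain ⟨β, hβ, α, hα, h⟩ := val_ext hXc hθ' (hcu _ hu)
    have hHC : H ≤ Subgroup.centralizer {a * a} := fun x hx =>
      Subgroup.mem_centralizer_singleton_iff.2 (hc x hx _ hu)
    have h4 : ∀ c ∈ E, X (c * (a * a)) = X (a * a) := fun c hc' => by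
      have h5 := le_ker (fun h => hK (h.trans (Subgroup.card_dvd_of_le inf_le_left))) hH e1
        (inf_le_right.trans e2) (fun x hx => Subgroup.mem_normalizer_fintype fun y hy =>
          ⟨Subgroup.Normal.conj_mem inferInstance y hy.1 x,
            Subgroup.mul_mem _ (Subgroup.mul_mem _ (hHC hx) hy.2) (Subgroup.inv_mem _ (hHC hx))⟩) (hHC.trans e2) e3 hβ
        (fun x hx g g' hg => mul_left_cancel₀ hα (by
          rw [← h, ← h, hg]
          refine (hXc.isClassFunction.eq_of_isConj (isConj_iff.2 ⟨x, ?_⟩)).symm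
          simp only [mul_assoc]
          rw [← mul_assoc a a, hc _ hu _ (inv_mem hx)])) (c := ⟨c, e1 hc'⟩) hc'
      have h6 := h 1
      rw [OneMemClass.coe_one, one_mul] at h6
      rw [h6, ← h5]
      exact h ⟨c, e1 hc'⟩
    have h5 := H34.sum_conj_mul_eq hXc hθ' a a
    rw [Finset.sum_congr rfl (g := fun _ => X (a * a)) fun k _ => by
      obtain ⟨c, hc', h6⟩ := e4 k k.2
      rw [← hXc.isClassFunction.eq_of_isConj h6, h4 c hc'], Finset.sum_const, Finset.card_univ,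
      ← Nat.card_eq_fintype_card, nsmul_eq_mul, mul_assoc, mul_assoc] at h5
    exact mul_left_cancel₀ (Nat.cast_ne_zero.2 Nat.card_pos.ne') h5
  have h4 : X 1 = 1 := lin_of_center hX.irrX hnc fun a ha => hXc.mem_charCenter.2 (by
    obtain ⟨n, hn, h5⟩ := hX.irrX.exists_degree_pos
    by_cases ha1 : a = 1
    · simp [ha1, h5]
    obtain ⟨b, hb, h6⟩ := Set.exists_min_image {a | a ∈ H ∧ a ≠ 1} (fun a => ‖X a‖)
      (Set.toFinite _) ⟨a, ha, ha1⟩
    have h7 := congrArg norm (h3 b hb.1 hb.2)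
    have h8 := h6 _ ⟨mul_mem hb.1 hb.1, hsq b hb.1 hb.2⟩
    have h9 := h6 a ⟨ha, ha1⟩
    have h10 := hXc.norm_le a
    have h11 := norm_pos_iff.2 (h2 b hb.1)
    rw [norm_mul, norm_mul, h5, Complex.norm_natCast] at h7
    rw [h5, Complex.natCast_re] at h10 ⊢
    have h12 : (n : ℝ) ≤ ‖X b‖ := le_of_mul_le_mul_left
      (h7 ▸ mul_le_mul_of_nonneg_right h8 (Nat.cast_nonneg n)) h11
    linarith)
  have h5 : res (inf_le_left : C ≤ K) θ = fun _ => 1 := funext fun c => by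
    change θ _ = 1
    rw [← hX.ext, apply_of_mem_charKer (hXc.commutator_le_charKer h4 (hKc c.2.1)), h4]
  have h6 := mult_spec (inf_le_left : C ≤ K) hθ.isCharacter hβ0.isCharacter
  rw [h5, isIrrCharacter_one.classInner_of_ne hβ0 fun h => h1 (by
    rw [← h, charKer_one]; trivial)] at h6
  exact ne_zero_of_cast hm (by exact_mod_cast h6.symm)

end H79.XC
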