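import Cfsg.Agent.H79.XCB
import Cfsg.Agent.H79.PSC
import Cfsg.Agent.H1.Coprime

/-! Extremely closed abelian `p`-subgroups, `p` odd. -/

set_option autoImplicit false
set_option linter.unusedSectionVars false

namespace H79.XC

open Cfsg H28 H79.PS
open scoped commutatorElement

universe u

variable {G : Type*} [Group G] [Finite G] {p : ℕ} [hp : Fact p.Prime] {H : Subgroup G}

/-- The subgroup generated by `H` and its conjugate by `g`. -/
def LL (H : Subgroup G) (g : G) : Subgroup G := H ⊔ H.map (MulAut.conj g).toMonoidHom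

theorem le_LL {g : G} : H ≤ LL H g := le_sup_left

/-- `H` is an extremely closed abelian `p`-subgroup. -/
structure EC (p : ℕ) (H : Subgroup G) : Prop where
  pg : IsPGroup p H
  comm : ∀ a ∈ H, ∀ b ∈ H, a * b = b * a
  cl : ∀ g : G, ∀ x ∈ LL H g, x ∈ Subgroup.normalizer (H : Set G) → x ∈ H

/-- The conclusion carried through the induction. -/
def Res (p : ℕ) (H : Subgroup G) : Prop :=
  ∃ K : Subgroup G, K.Normal ∧ ¬ p ∣ Nat.card K ∧ K ⊓ Subgroup.centralizer (H : Set G) = ⊥ ∧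
    Subgroup.normalClosure (H : Set G) ≤ K ⊔ H

/-- A maximal `p`-subgroup of `L` as a Sylow subgroup. -/
def syl {L A : Subgroup G} (hAL : A ≤ L) (hA : IsPGroup p A)
    (hmax : ∀ Q : Subgroup G, IsPGroup p Q → A ≤ Q → Q ≤ L → Q ≤ A) : Sylow p L where
  toSubgroup := A.subgroupOf L
  isPGroup' := hA.comap_subtype
  is_maximal' := fun {_} hQ h => le_antisymm (fun x hx => hmax _ (hQ.map L.subtype)
    (fun a ha => ⟨⟨a, hAL ha⟩, h ha, rfl⟩) (Subgroup.map_subtype_le _) ⟨x, hx, rfl⟩) h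

theorem burn {L A : Subgroup G} (hAL : A ≤ L) (hA : IsPGroup p A)
    (hmax : ∀ Q : Subgroup G, IsPGroup p Q → A ≤ Q → Q ≤ L → Q ≤ A)
    (hN : ∀ x ∈ L, x ∈ Subgroup.normalizer (A : Set G) → ∀ a ∈ A, a * x = x * a) {y : G}
    (hy : y ∈ L) : ∃ a ∈ A, a⁻¹ * y ∈ oc p L := by
  have h1 : Subgroup.normalizer ((syl hAL hA hmax : Subgroup L) : Set L) ≤
      Subgroup.centralizer ((syl hAL hA hmax : Subgroup L) : Set L) := fun x hx a ha => by
    have h2 : x ∈ (Subgroup.normalizer (A : Set G)).subgroupOf L := by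
      rwa [Subgroup.subgroupOf_normalizer_eq hAL]
    exact Subtype.ext (hN x x.2 h2 a ha)
  obtain ⟨⟨a, k⟩, h2, -⟩ := (MonoidHom.ker_transferSylow_isComplement' _ h1).symm.existsUnique
    ⟨y, hy⟩
  refine ⟨a.1, a.2, ?_⟩
  have h3 : ((a.1 : L) : G)⁻¹ * y = k.1 := by
    rw [show y = a.1 * k.1 from (congrArg Subtype.val h2).symm]; simp
  rw [h3]
  exact mem_oc.2 (H2.le_pPrimeCore_of_not_dvd (MonoidHom.not_dvd_card_ker_transferSylow _ h1) k.2)

theorem mem_of_reg {K : Subgroup G} [K.Normal] (hH : IsPGroup p H) {x : G} (hx : x ∈ K ⊔ H)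
    (h : ¬ p ∣ orderOf x) : x ∈ K := by
  obtain ⟨k, hk, a, ha, rfl⟩ := Subgroup.mem_sup_of_normal_left.1 hx
  rw [← QuotientGroup.eq_one_iff]
  refine eq_one_of_mem (hH.map (QuotientGroup.mk' K)) ⟨a, ha, ?_⟩
    fun h1 => h (h1.trans (orderOf_map_dvd (QuotientGroup.mk' K) _))
  simp [(QuotientGroup.eq_one_iff k).2 hk]

theorem conj_mem_LL {w : G} (hw : w ∈ H) (g : G) : g * w * g⁻¹ ∈ LL H g :=
  Subgroup.mem_sup_right ⟨w, hw, rfl⟩

theorem LL_le (g : G) : LL H g ≤ Subgroup.normalClosure (H : Set G) :=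
  sup_le Subgroup.le_normalClosure (by
    rintro _ ⟨w, hw, rfl⟩
    exact Subgroup.Normal.conj_mem inferInstance _ (Subgroup.le_normalClosure hw) g)

theorem EC.max (h : EC p H) (g : G) (Q : Subgroup G) (hQ : IsPGroup p Q) (h1 : H ≤ Q)
    (h2 : Q ≤ LL H g) : Q ≤ H := by
  by_contra h3
  have := hQ.isNilpotent
  obtain ⟨x, hx, h4⟩ := SetLike.exists_of_lt (Group.normalizerCondition_of_isNilpotent
    (H.subgroupOf Q)
    (lt_top_iff_ne_top.2 fun h4 => h3 (Subgroup.subgroupOf_eq_top.1 h4)))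
  rw [← Subgroup.subgroupOf_normalizer_eq h1] at hx
  exact h4 (h.cl g x (h2 x.2) hx)

theorem EC.dec (h : EC p H) (g : G) {y : G} (hy : y ∈ LL H g) :
    ∃ a ∈ H, a⁻¹ * y ∈ oc p (LL H g) :=
  burn le_LL h.pg (h.max g) (fun x hx hn a ha => h.comm a ha x (h.cl g x hx hn)) hy

theorem EC.conj (h : EC p H) (g : G) :
    ∃ o ∈ oc p (LL H g), ∀ w ∈ H, o⁻¹ * (g * w * g⁻¹) * o ∈ H := by
  obtain ⟨T, hT⟩ := ((h.pg.map (MulAut.conj g).toMonoidHom).comap_subtype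
    (K := LL H g)).exists_le_sylow
  obtain ⟨l, rfl⟩ := MulAction.exists_smul_eq (LL H g) (syl le_LL h.pg (h.max g)) T
  obtain ⟨a, ha, h1⟩ := h.dec g l.2
  refine ⟨_, oc_conj (le_LL ha) h1, fun w hw => ?_⟩
  have h2 : (l : G)⁻¹ * (g * w * g⁻¹) * l ∈ H := mem_smul (G := LL H g).1
    (hT (show (⟨_, conj_mem_LL hw g⟩ : LL H g) ∈ Subgroup.comap _ _ from ⟨w, hw, rfl⟩))
  simpa [mul_assoc] using mul_mem (mul_mem ha h2) (inv_mem ha)

theorem EC.cent (h : EC p H) (g : G) {x : G} (hx : x ∈ oc p (LL H g))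
    (hc : x ∈ Subgroup.centralizer (H : Set G)) : x = 1 :=
  eq_one_of_mem h.pg (h.cl g x (oc_le hx) (Subgroup.centralizer_le_normalizer _ hc))
    (reg_of_mem (oc_card _) hx)

theorem EC.subgroupOf (h : EC p H) {M : Subgroup G} (hM : H ≤ M) : EC p (H.subgroupOf M) := by
  refine ⟨h.pg.comap_subtype, fun a ha b hb => Subtype.ext (h.comm _ ha _ hb), fun g x hx hn => ?_⟩
  rw [← Subgroup.subgroupOf_normalizer_eq hM] at hn
  refine h.cl g x ((show LL (H.subgroupOf M) g ≤ (LL H g).comap M.subtype from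
    sup_le (fun y hy => le_LL (H := H) hy) ?_) hx) hn
  rintro _ ⟨w, hw, rfl⟩
  exact conj_mem_LL (H := H) hw (g : G)

theorem EC.map (h : EC p H) {G' : Type*} [Group G'] (f : G →* G') (hf : Function.Surjective f)
    (hk : f.ker ≤ H) : EC p (H.map f) := by
  refine ⟨h.pg.map f, ?_, fun g x hx hn => ?_⟩
  · rintro _ ⟨a, ha, rfl⟩ _ ⟨b, hb, rfl⟩
    rw [← map_mul, ← map_mul, h.comm a ha b hb]
  obtain ⟨g, rfl⟩ := hf g
  obtain ⟨y, hy, rfl⟩ : x ∈ (LL H g).map f := (show LL (H.map f) (f g) ≤ (LL H g).map f from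
    sup_le (Subgroup.map_mono le_LL) (by
      rintro _ ⟨_, ⟨w, hw, rfl⟩, rfl⟩
      exact ⟨_, conj_mem_LL hw g, by simp⟩)) hx
  refine ⟨y, h.cl g y hy (Subgroup.mem_normalizer_fintype fun a ha => ?_), rfl⟩
  have h1 : y * a * y⁻¹ ∈ (H.map f).comap f := by
    simpa using (Subgroup.mem_normalizer_iff.1 hn (f a)).1 ⟨a, ha, rfl⟩
  rwa [Subgroup.comap_map_eq, sup_eq_left.2 hk] at h1

theorem EC.loc' (h : EC p H) {C : Subgroup G} (hHC : H ≤ C) (hr : Res p (H.subgroupOf C)) :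
    ∃ E : Subgroup G, ¬ p ∣ Nat.card E ∧ E ≤ oc p C ∧ C ≤ Subgroup.normalizer (E : Set G) ∧
      E ⊓ Subgroup.centralizer (H : Set G) = ⊥ ∧ ∀ g, ∀ c ∈ oc p (LL H g), c ∈ C → c ∈ E := by
  obtain ⟨K, hK, h1, h2, h3⟩ := hr
  refine ⟨K.map C.subtype, not_dvd_map h1 _, Subgroup.map_mono (H2.le_pPrimeCore_of_not_dvd h1),
    fun x hx => Subgroup.mem_normalizer_fintype ?_, eq_bot_iff.2 ?_, fun g c hc hcC => ?_⟩
  · rintro _ ⟨k, hk, rfl⟩
    exact ⟨_, hK.conj_mem k hk ⟨x, hx⟩, rfl⟩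
  · rintro _ ⟨⟨k, hk, rfl⟩, h4⟩
    have h5 : k ∈ K ⊓ Subgroup.centralizer (H.subgroupOf C : Set C) :=
      ⟨hk, fun a ha => Subtype.ext (h4 a ha)⟩
    rw [h2, Subgroup.mem_bot] at h5
    simp [h5]
  have := h.pg.isNilpotent
  obtain ⟨c', hc', n, hn, h4⟩ := H1.exists_centralizer_mul_commutator (A := H)
    (K := oc p (LL H g) ⊓ C) (H1.le_normalizer_inf
      (fun x hx => mem_norm_oc (le_LL hx)) (hHC.trans Subgroup.le_normalizer))
    (cop_card (fun h4 => oc_card _ (h4.trans (Subgroup.card_dvd_of_le inf_le_left))) h.pg).symm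
    (Or.inl inferInstance) ⟨hc, hcC⟩
  rw [h.cent g hc'.1.1 hc'.2, one_mul] at h4
  have h5 : ⁅oc p (LL H g) ⊓ C, H⁆ ≤
      (Subgroup.normalClosure (H.subgroupOf C : Set C)).map C.subtype :=
    Subgroup.commutator_le.2 fun d hd a ha => by
      have h6 : (⟨a, hHC ha⟩ : C) ∈ Subgroup.normalClosure (H.subgroupOf C : Set C) :=
        Subgroup.subset_normalClosure ha
      exact ⟨_, mul_mem (Subgroup.Normal.conj_mem inferInstance _ h6 ⟨d, hd.2⟩) (inv_mem h6), rfl⟩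
  rw [← h4] at hn
  obtain ⟨c'', h6, h7⟩ := h5 hn
  refine ⟨c'', mem_of_reg h.pg.comap_subtype (h3 h6) ?_, h7⟩
  rw [← Subgroup.orderOf_coe, show (c'' : G) = c from h7]
  exact reg_of_mem (oc_card _) hc

theorem EC.loc (h : EC p H) {u : G} (hu : u ∈ H)
    (hr : Res p (H.subgroupOf (Subgroup.centralizer {u}))) : ∃ E : Subgroup G,
      ¬ p ∣ Nat.card E ∧ E ≤ oc p (Subgroup.centralizer {u}) ∧
      Subgroup.centralizer {u} ≤ Subgroup.normalizer (E : Set G) ∧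
      E ⊓ Subgroup.centralizer (H : Set G) = ⊥ ∧
      ∀ g, ∀ c ∈ oc p (LL H g), Commute u c → c ∈ E := by
  obtain ⟨E, e0, e1, e2, e3, e4⟩ := h.loc'
    (fun x hx => Subgroup.mem_centralizer_singleton_iff.2 (h.comm x hx u hu)) hr
  exact ⟨E, e0, e1, e2, e3, fun g c hc huc =>
    e4 g c hc (Subgroup.mem_centralizer_singleton_iff.2 huc.symm)⟩

theorem EC.res_top (hp2 : p ≠ 2) (h : EC p H) (hne : H ≠ ⊥)
    (htop : Subgroup.normalClosure (H : Set G) = ⊤)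
    (hloc : ∀ u ∈ H, u ≠ 1 → Res p (H.subgroupOf (Subgroup.centralizer {u}))) : Res p H := by
  choose o ho ho' using h.conj
  have hq : 3 ≤ Nat.card H := by
    have : Nontrivial H := (Subgroup.nontrivial_iff_ne_bot _).2 hne
    obtain ⟨k, hk0, hk⟩ := h.pg.nontrivial_iff_card.1 this
    have h1 := Nat.le_of_dvd Nat.card_pos (hk ▸ dvd_pow_self p hk0.ne' : p ∣ Nat.card H)
    have := hp.out.two_le
    omega
  have hcm : ∀ g, ∀ x ∈ H, x⁻¹ * (o g * x * (o g)⁻¹) ∈ oc p (LL H g) := fun g x hx => by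
    simpa [mul_assoc] using mul_mem (oc_conj' (le_LL hx) (ho g)) (inv_mem (ho g))
  obtain ⟨M, hM⟩ := H35.exists_isPModular p hp.out
  have := hM.2.1
  have hv : ∀ χ ∈ principalBlock M G, (χ : G → ℂ) 1 ≠ 1 → ∀ u ∈ H, u ≠ 1 →
      (χ : G → ℂ) u = 0 := fun χ hχ hχ1 u hu hu1 => by
    refine vanish hM h.pg (π := fun g w => o g * w * (o g)⁻¹) ⟨fun g => ?_, fun g x w => ?_⟩
      (fun g x => reg_of_mem (oc_card _) (hcm g x x.2)) (fun χ hχ g x w hxw => ?_) hq htop h.comm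
      hχ hχ1 (u := ⟨u, hu⟩) fun h1 => hu1 (congrArg Subtype.val h1)
    · obtain ⟨e, he⟩ : ∃ e : H ≃ H, ∀ w, (e w : G) = (o g)⁻¹ * (g * w * g⁻¹) * o g :=
        ⟨Equiv.ofBijective (fun w : H => (⟨_, ho' g w w.2⟩ : H))
          (Finite.injective_iff_bijective.1 fun a b hab => Subtype.ext (by
            simpa using congrArg Subtype.val hab)), fun _ => rfl⟩
      refine ⟨e.symm, fun w => ?_⟩
      have h1 := he (e.symm w)
      rw [e.apply_symm_apply] at h1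
      simp [h1, mul_assoc]
    · exact isConj_iff.2 ⟨o g, by simp [mul_assoc]⟩
    · have hu : (x : G)⁻¹ * w ∈ H := mul_mem (inv_mem x.2) w.2
      have hu1 : (x : G)⁻¹ * w ≠ 1 := fun h1 => hxw (Subtype.ext (inv_mul_eq_one.1 h1))
      obtain ⟨k, hk⟩ := pow_of_mem h.pg hu
      obtain ⟨E, -, e1, -, -, e2⟩ := h.loc hu (hloc _ hu hu1)
      obtain ⟨c, hc, h3, h4⟩ := coset_conj (oc_card _) hk
        (mem_norm_oc (le_LL hu)) (hcm g w w.2)
      obtain ⟨c', hc', rfl⟩ := e1 (e2 g c hc h3)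
      rw [mul_assoc (x : G)⁻¹ w ((w : G)⁻¹ * _), mul_inv_cancel_left] at h4
      rw [← χ.2.isClassFunction.eq_of_isConj h4]
      exact H34.prin_mul_core' hM (H41.isSec_centralizer (ord_of_mem h.pg ⟨_, hu⟩)) hχ hc'
  have hcj : ∀ u ∈ H, u ≠ 1 → ∀ y, (∃ k, orderOf y = p ^ k) → u⁻¹ * y ∈ commutator G →
      IsConj y u := fun u hu hu1 y hy h1 =>
    conj_of_vanish hM (ord_of_mem h.pg ⟨u, hu⟩) hy h1 fun χ hχ hχ1 => hv χ hχ hχ1 u hu hu1
  have hK : ¬ p ∣ Nat.card (commutator G) := fun h1 => by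
    obtain ⟨P, hP⟩ := h.pg.exists_le_sylow
    obtain ⟨v', hv'⟩ := exists_prime_orderOf_dvd_card' (G := commutator G) p h1
    rw [← Subgroup.orderOf_coe] at hv'
    obtain ⟨S, hS⟩ := (IsPGroup.of_card (p := p) (G := Subgroup.zpowers (v' : G)) (n := 1)
      (by rw [Nat.card_zpowers, pow_one, hv'])).exists_le_sylow
    obtain ⟨t, rfl⟩ := MulAction.exists_smul_eq G P S
    have h2 := mem_smul.1 (hS (Subgroup.mem_zpowers _))
    have h3 : t⁻¹ * v' * t ∈ commutator G := Subgroup.Normal.conj_mem' inferInstance _ v'.2 t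
    have h4 : t⁻¹ * v' * t ≠ 1 := fun h4 => hp.out.ne_one (by
      rw [← hv', show (v' : G) = 1 by simpa [mul_assoc, mul_eq_one_iff_eq_inv] using h4,
        orderOf_one])
    set v := t⁻¹ * v' * t
    obtain ⟨⟨u, hu⟩, hu1⟩ := Subgroup.ne_bot_iff_exists_ne_one.1 hne
    have h5 := mul_mem (hP hu) h2
    obtain ⟨g, hg⟩ := isConj_iff.1 (hcj u hu (fun h6 => hu1 (Subtype.ext h6)) (u * v)
      (ord_of_mem P.2 ⟨_, h5⟩) (by simpa using h3)).symm
    have h6 : u * v ∈ H := h.max g (LL H g ⊓ P) P.2.to_inf_right (le_inf le_LL hP)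
      inf_le_left ⟨hg ▸ conj_mem_LL hu g, h5⟩
    exact h4 (isConj_one_right.1 (hcj v ((mul_mem_cancel_left hu).1 h6) h4 1 ⟨0, by simp⟩
      (by simpa using h3)))
  have hT : commutator G ⊔ H = ⊤ := by
    have : (commutator G ⊔ H).Normal := Subgroup.Normal.of_commutator_le _ le_sup_left
    exact eq_top_iff.2 (htop ▸ Subgroup.normalClosure_le_normal
      (show H ≤ commutator G ⊔ H from le_sup_right))
  refine ⟨commutator G, inferInstance, hK, coprime_case hp2 hK h.pg le_rfl hT htop h.comm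
    fun a ha ha1 => ?_, hT ▸ le_top⟩
  have hu := mul_mem ha ha
  obtain ⟨E, e0, e1, e2, e3, e4⟩ := h.loc hu (hloc _ hu ha1)
  refine ⟨E, fun x hx => ⟨mem_of_reg h.pg (hT ▸ Subgroup.mem_top x) (reg_of_mem e0 hx),
    oc_le (e1 hx)⟩, e2, e3, fun k hk => ?_⟩
  obtain ⟨j, hj⟩ := pow_of_mem h.pg hu
  have h1 : a⁻¹ * (k * a * k⁻¹) ∈ oc p (LL H k) := by
    obtain ⟨b, hb, h2⟩ := h.dec k (mul_mem (inv_mem (le_LL ha)) (conj_mem_LL ha k))
    have h3 : a⁻¹ * (k * a * k⁻¹) ∈ commutator G := by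
      simpa [mul_assoc] using mul_mem (Subgroup.Normal.conj_mem' inferInstance k hk a) (inv_mem hk)
    have h4 : b = 1 := uniq h.pg le_LL hb (one_mem _) h2 (by simpa using reg_of_mem hK h3)
    simpa [h4] using h2
  obtain ⟨c, hc, h3, h4⟩ := coset_conj (oc_card _) hj (mem_norm_oc (le_LL hu)) h1
  refine ⟨c, e4 k c hc h3, ?_⟩
  rw [← h3.eq]
  exact h4.trans (isConj_iff.2 ⟨a⁻¹, by simp [mul_assoc]⟩)

theorem EC.res_lt (h : EC p H) {N : Subgroup G} (hN : Subgroup.normalClosure (H : Set G) = N)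
    (hr : Res p (H.subgroupOf N)) : Res p H := by
  obtain ⟨K, hK, h1, h2, h3⟩ := hr
  have hHN : H ≤ N := hN ▸ Subgroup.le_normalClosure
  have hNn : N.Normal := hN ▸ inferInstance
  have h4 : Subgroup.normalClosure (H : Set G) ≤ (K ⊔ H.subgroupOf N).map N.subtype :=
    (Subgroup.closure_le _).2 fun y hy => by
      obtain ⟨w, hw, h5⟩ := Group.mem_conjugatesOfSet_iff.1 hy
      obtain ⟨g, rfl⟩ := isConj_iff.1 h5
      obtain ⟨o, ho, h6⟩ := h.conj g
      have h7 : (⟨_, hHN (h6 w hw)⟩ : N) ∈ Subgroup.normalClosure (H.subgroupOf N : Set N) :=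
        Subgroup.subset_normalClosure (h6 w hw)
      exact ⟨_, h3 (Subgroup.Normal.conj_mem inferInstance _ h7 ⟨o, hN.le (LL_le g (oc_le ho))⟩),
        by simp [mul_assoc]⟩
  refine ⟨K.map N.subtype, ⟨?_⟩, not_dvd_map h1 _, eq_bot_iff.2 ?_, h4.trans ?_⟩
  · rintro _ ⟨k, hk, rfl⟩ g
    obtain ⟨y, hy, h5⟩ := h4 (hN.ge (hNn.conj_mem _ k.2 g))
    refine ⟨y, mem_of_reg h.pg.comap_subtype hy ?_, h5⟩
    rw [← Subgroup.orderOf_coe, show (y : G) = MulAut.conj g k from h5, MulEquiv.orderOf_eq,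
      Subgroup.orderOf_coe]
    exact reg_of_mem h1 hk
  · rintro _ ⟨⟨k, hk, rfl⟩, h4⟩
    have h5 : k ∈ K ⊓ Subgroup.centralizer (H.subgroupOf N : Set N) :=
      ⟨hk, fun a ha => Subtype.ext (h4 a ha)⟩
    rw [h2, Subgroup.mem_bot] at h5
    simp [h5]
  · rw [Subgroup.map_sup]
    exact sup_le_sup_left (Subgroup.map_le_iff_le_comap.2 le_rfl) _

theorem EC.res_quot (h : EC p H) {Z : Subgroup G} [Z.Normal] (hZ : Z ≤ H)
    (hc : Z ≤ Subgroup.center G) (hr : Res p (H.map (QuotientGroup.mk' Z))) : Res p H := by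
  obtain ⟨K, hK, h1, h2, h3⟩ := hr
  obtain ⟨f, hf⟩ : ∃ f, f = QuotientGroup.mk' Z := ⟨_, rfl⟩
  have hf1 : ∀ x, f x = 1 ↔ x ∈ Z := fun x => hf ▸ QuotientGroup.eq_one_iff x
  rw [← hf] at h2 h3
  have hZK : Z ≤ K.comap f := fun z hz => by
    rw [Subgroup.mem_comap, (hf1 z).2 hz]
    exact one_mem _
  have h4 : ∀ y ∈ K.comap f, ∃ a ∈ Z, a⁻¹ * y ∈ oc p (K.comap f) := fun y hy =>
    burn hZK (h.pg.to_le hZ) (fun Q hQ _ h4 x hx => (hf1 x).1
      (eq_one_of_mem (hQ.map f) ⟨x, hx, rfl⟩ (reg_of_mem h1 (h4 hx))))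
      (fun x _ _ a ha => (Subgroup.mem_center_iff.1 (hc ha) x).symm) hy
  refine ⟨oc p (K.comap f), ConjAct.normal_of_characteristic_of_normal, oc_card _,
    eq_bot_iff.2 fun x hx => ?_, fun x hx => ?_⟩
  · have h5 : f x ∈ K ⊓ Subgroup.centralizer (H.map f : Set (G ⧸ Z)) :=
      ⟨oc_le (H := K.comap f) hx.1, by
        rintro _ ⟨a, ha, rfl⟩
        rw [← map_mul, ← map_mul, hx.2 a ha]⟩
    rw [h2, Subgroup.mem_bot] at h5
    exact eq_one_of_mem h.pg (hZ ((hf1 x).1 h5)) (reg_of_mem (oc_card _) hx.1)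
  · have h5 : f x ∈ K ⊔ H.map f := h3 ((Subgroup.normalClosure_le_normal
      (N := (Subgroup.normalClosure (H.map f : Set (G ⧸ Z))).comap f)
        fun a ha => Subgroup.subset_normalClosure ⟨a, ha, rfl⟩) hx)
    obtain ⟨k, hk, _, ⟨a, ha, rfl⟩, h6⟩ := Subgroup.mem_sup_of_normal_left.1 h5
    obtain ⟨z, hz, h7⟩ := h4 (x * a⁻¹) (by rw [Subgroup.mem_comap, map_mul, ← h6]; simpa using hk)
    simpa [mul_assoc] using mul_mem (mul_mem (Subgroup.mem_sup_right (hZ hz))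
      (Subgroup.mem_sup_left h7)) (Subgroup.mem_sup_right (S := oc p (K.comap f)) ha)

theorem res_aux (hp2 : p ≠ 2) (n : ℕ) : ∀ (G : Type u) [Group G] [Finite G], Nat.card G = n →
    ∀ H : Subgroup G, EC p H → Res p H := by
  induction n using Nat.strong_induction_on with
  | _ n ih =>
  intro G _ _ hn H h
  subst hn
  have hs : ∀ M : Subgroup G, M ≠ ⊤ → H ≤ M → Res p (H.subgroupOf M) := fun M hM h1 =>
    ih _ (Finite.card_subtype_lt (p := (· ∈ M)) (Classical.choose_spec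
      (not_forall.1 fun h1 => hM ((Subgroup.eq_top_iff' M).2 h1)))) M rfl _ (h.subgroupOf h1)
  by_cases h0 : H = ⊥
  · exact ⟨⊥, inferInstance, by simp [hp.out.ne_one], bot_inf_eq _, by simp [h0]⟩
  by_cases h1 : Subgroup.normalClosure (H : Set G) = ⊤
  swap
  · exact h.res_lt rfl (hs _ h1 Subgroup.le_normalClosure)
  by_cases h2 : H ⊓ Subgroup.center G = ⊥
  · refine h.res_top hp2 h0 h1 fun u hu hu1 => hs _ (fun h3 => hu1 ?_) fun x hx =>
      Subgroup.mem_centralizer_singleton_iff.2 (h.comm x hx u hu)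
    exact (h2.le ⟨hu, Subgroup.mem_center_iff.2 fun g =>
      Subgroup.mem_centralizer_singleton_iff.1 (h3 ▸ Subgroup.mem_top g)⟩ :)
  · have : (H ⊓ Subgroup.center G).Normal := ⟨fun x hx g => by
      rwa [Subgroup.mem_center_iff.1 hx.2 g, mul_inv_cancel_right]⟩
    refine h.res_quot inf_le_left inf_le_right (ih _ ?_ _ rfl _
      (h.map _ (QuotientGroup.mk'_surjective _) (by rw [QuotientGroup.ker_mk']; exact inf_le_left)))
    rw [(H ⊓ Subgroup.center G).card_eq_card_quotient_mul_card_subgroup]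
    exact lt_mul_of_one_lt_right Nat.card_pos ((Subgroup.one_lt_card_iff_ne_bot _).2 h2)

theorem EC.main (hp2 : p ≠ 2) (h : EC p H) :
    Subgroup.normalClosure (H : Set G) ⊓ Subgroup.normalizer (H : Set G) = H ∧
      Subgroup.normalizer (H : Set G) ⊔ pPrimeCore p G = ⊤ := by
  obtain ⟨K, hK, h1, h2, h3⟩ := res_aux hp2 _ G rfl H h
  refine ⟨le_antisymm (fun x hx => ?_) (le_inf Subgroup.le_normalClosure Subgroup.le_normalizer),
    eq_top_iff.2 fun g _ => ?_⟩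
  · obtain ⟨k, hk, a, ha, rfl⟩ := Subgroup.mem_sup_of_normal_left.1 (h3 hx.1)
    have h4 : k ∈ Subgroup.normalizer (H : Set G) :=
      (mul_mem_cancel_right (Subgroup.le_normalizer ha)).1 hx.2
    have h5 : k ∈ (⊥ : Subgroup G) := h2 ▸ ⟨hk, fun b hb => by
      have h6 : k * b * k⁻¹ * b⁻¹ = 1 := eq_one_of_mem h.pg
        (mul_mem ((Subgroup.mem_normalizer_iff.1 h4 b).1 hb) (inv_mem hb)) (reg_of_mem h1 (by
          simpa [mul_assoc] using mul_mem hk (hK.conj_mem _ (inv_mem hk) b)))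
      rw [mul_inv_eq_one, mul_inv_eq_iff_eq_mul] at h6
      exact h6.symm⟩
    rwa [Subgroup.mem_bot.1 h5, one_mul]
  · obtain ⟨o, ho, h4⟩ := h.conj g
    have h5 : o⁻¹ * g ∈ Subgroup.normalizer (H : Set G) :=
      Subgroup.mem_normalizer_fintype fun w hw => by simpa [mul_assoc] using h4 w hw
    simpa using mul_mem (Subgroup.mem_sup_right (H2.le_pPrimeCore_of_not_dvd h1
      (mem_of_reg h.pg (h3 (LL_le g (oc_le ho))) (reg_of_mem (oc_card _) ho))))
      (Subgroup.mem_sup_left (T := pPrimeCore p G) h5)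

end H79.XC
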